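import Mathlib.RingTheory.Jacobson.Ring
import Mathlib.RingTheory.Polynomial.UniqueFactorization
import Mathlib.FieldTheory.Minpoly.IsIntegrallyClosed
import Mathlib.FieldTheory.IsAlgClosed.Basic
import Mathlib.RingTheory.Trace.Basic
import Mathlib.RingTheory.Ideal.GoingUp
import Mathlib.Analysis.Polynomial.CauchyBound
import Mathlib.Analysis.Complex.Polynomial.Basic
import Mathlib.Topology.Algebra.MvPolynomial
import Mathlib.RingTheory.Polynomial.RationalRoot
import Mathlib.Analysis.Normed.Group.Constructions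

/-!
# Characters of a finite algebra over a complex polynomial ring

`S` is a domain, finite over `R = ℂ[u₁, …, u_d]`.  Every root of the minimal polynomial of
`s ∈ S` specialised at `u` is a value `y(s)` at a character `y` over `u`; elements of `S` are bounded
over the unit polydisc; the trace of `s` is bounded by the values of `s` on the fibre.
-/

set_option autoImplicit false

open MvPolynomial

namespace Groth.Agent.Gaga.H145.Chars

/-- A maximal ideal of a finite type `ℂ`-algebra is the kernel of a character. -/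
theorem exists_char {S : Type*} [CommRing S] [Algebra ℂ S] [Algebra.FiniteType ℂ S]
    (Q : Ideal S) [hQ : Q.IsMaximal] : ∃ y : S →ₐ[ℂ] ℂ, ∀ s, y s = 0 ↔ s ∈ Q := by
  let := Ideal.Quotient.field Q
  have h1 : Module.Finite ℂ (S ⧸ Q) := finite_of_finite_type_of_isJacobsonRing ℂ (S ⧸ Q)
  have h2 : Algebra.IsIntegral ℂ (S ⧸ Q) := inferInstance
  have h3 : Function.Bijective (algebraMap ℂ (S ⧸ Q)) :=
    IsAlgClosed.algebraMap_bijective_of_isIntegral
  let e : ℂ ≃ₐ[ℂ] (S ⧸ Q) := AlgEquiv.ofBijective (Algebra.ofId ℂ (S ⧸ Q)) h3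
  refine ⟨(e.symm : (S ⧸ Q) →ₐ[ℂ] ℂ).comp (Ideal.Quotient.mkₐ ℂ Q), fun s => ?_⟩
  change e.symm (Ideal.Quotient.mk Q s) = 0 ↔ _
  rw [map_eq_zero_iff _ e.symm.injective, Ideal.Quotient.eq_zero_iff_mem]

variable {d : ℕ} {S : Type*} [CommRing S] [Algebra ℂ S] [Algebra (MvPolynomial (Fin d) ℂ) S]
  [IsScalarTower ℂ (MvPolynomial (Fin d) ℂ) S]

/-- The point of `ℂ^d` below a character. -/
noncomputable def pu (y : S →ₐ[ℂ] ℂ) : Fin d → ℂ :=
  fun i => y (algebraMap (MvPolynomial (Fin d) ℂ) S (X i))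

theorem apply_algebraMap (y : S →ₐ[ℂ] ℂ) (c : MvPolynomial (Fin d) ℂ) :
    y (algebraMap (MvPolynomial (Fin d) ℂ) S c) = eval (pu y) c := by
  have h : (y.comp (IsScalarTower.toAlgHom ℂ (MvPolynomial (Fin d) ℂ) S)) =
      (MvPolynomial.aeval (pu y) : MvPolynomial (Fin d) ℂ →ₐ[ℂ] ℂ) := by
    ext i
    simp [pu]
  have h1 := DFunLike.congr_fun h c
  simpa using h1

theorem isRoot (y : S →ₐ[ℂ] ℂ) (s : S) (p : Polynomial (MvPolynomial (Fin d) ℂ))
    (hp : Polynomial.aeval s p = 0) : (p.map (eval (pu y))).IsRoot (y s) := by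
  have h1 : y (Polynomial.aeval s p) = (p.map (eval (pu y))).eval (y s) := by
    rw [Polynomial.eval_map, Polynomial.aeval_def]
    have h2 := Polynomial.hom_eval₂ p (algebraMap (MvPolynomial (Fin d) ℂ) S) (y : S →+* ℂ) s
    have h3 : ((y : S →+* ℂ).comp (algebraMap (MvPolynomial (Fin d) ℂ) S)) = eval (pu y) := by
      ext c
      · simp only [RingHom.comp_apply, RingHom.coe_coe]
        rw [apply_algebraMap]
      · simp only [RingHom.comp_apply, RingHom.coe_coe]
        rw [apply_algebraMap]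
    rw [h3] at h2
    exact h2
  rw [Polynomial.IsRoot.def, ← h1, hp, map_zero]

section Fin

variable [Module.Finite (MvPolynomial (Fin d) ℂ) S]

include d in
theorem finiteType : Algebra.FiniteType ℂ S :=
  Algebra.FiniteType.trans (S := MvPolynomial (Fin d) ℂ) inferInstance inferInstance

/-- Elements of `S` are bounded over the closed unit polydisc. -/
theorem exists_bound (s : S) :
    ∃ C : ℝ, 0 < C ∧ ∀ y : S →ₐ[ℂ] ℂ, ‖(pu y : Fin d → ℂ)‖ ≤ 1 → ‖y s‖ ≤ C := by
  obtain ⟨p, hp, hps⟩ := Algebra.IsIntegral.isIntegral (R := MvPolynomial (Fin d) ℂ) s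
  have h1 : ∀ i, ∃ B : ℝ, ∀ u : Fin d → ℂ, ‖u‖ ≤ 1 → ‖eval u (p.coeff i)‖ ≤ B := by
    intro i
    have hc : IsCompact (Metric.closedBall (0 : Fin d → ℂ) 1) := isCompact_closedBall _ _
    obtain ⟨B, hB⟩ := hc.exists_bound_of_continuousOn
      (f := fun u => eval u (p.coeff i)) (MvPolynomial.continuous_eval _).continuousOn
    exact ⟨B, fun u hu => hB u (by simpa using hu)⟩
  choose B hB using h1
  refine ⟨(∑ i ∈ Finset.range p.natDegree, |B i|) + 1, by positivity, fun y hy => ?_⟩
  set q := p.map (eval (pu y : Fin d → ℂ)) with hq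
  have hqm : q.Monic := hp.map _
  have hroot : q.IsRoot (y s) := isRoot y s p hps
  have h2 := hroot.norm_lt_cauchyBound hqm.ne_zero
  have h3 : ((Polynomial.cauchyBound q : NNReal) : ℝ) ≤ (∑ i ∈ Finset.range p.natDegree, |B i|) + 1 := by
    rw [Polynomial.cauchyBound, hqm.leadingCoeff, nnnorm_one, div_one, NNReal.coe_add,
      NNReal.coe_one]
    gcongr
    have hdeg : q.natDegree = p.natDegree := hp.natDegree_map _
    rw [hdeg]
    have h4 : (Finset.range p.natDegree).sup (fun x => ‖q.coeff x‖₊) ≤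
        ∑ i ∈ Finset.range p.natDegree, ‖q.coeff i‖₊ :=
      Finset.sup_le fun i hi => Finset.single_le_sum (f := fun i => ‖q.coeff i‖₊)
        (fun _ _ => zero_le) hi
    calc (((Finset.range p.natDegree).sup (fun x => ‖q.coeff x‖₊) : NNReal) : ℝ)
        ≤ ((∑ i ∈ Finset.range p.natDegree, ‖q.coeff i‖₊ : NNReal) : ℝ) := by exact_mod_cast h4
      _ = ∑ i ∈ Finset.range p.natDegree, ‖q.coeff i‖ := by simp
      _ ≤ ∑ i ∈ Finset.range p.natDegree, |B i| := by
          refine Finset.sum_le_sum fun i _ => ?_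
          rw [hq, Polynomial.coeff_map]
          exact (hB i _ hy).trans (le_abs_self _)
  have h5 : ‖y s‖ < ((Polynomial.cauchyBound q : NNReal) : ℝ) := by exact_mod_cast h2
  linarith

end Fin

section Domain

variable [IsDomain S] [Module.Finite (MvPolynomial (Fin d) ℂ) S]
  [Module.IsTorsionFree (MvPolynomial (Fin d) ℂ) S]

/-- Lying over: each root of the specialised minimal polynomial is a value at a character. -/
theorem exists_char_of_isRoot (s : S) (u : Fin d → ℂ) (lam : ℂ)
    (h : ((minpoly (MvPolynomial (Fin d) ℂ) s).map (eval u)).IsRoot lam) :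
    ∃ y : S →ₐ[ℂ] ℂ, pu y = u ∧ y s = lam := by
  classical
  let : Algebra (Polynomial (MvPolynomial (Fin d) ℂ)) S :=
    ((Polynomial.aeval s : Polynomial (MvPolynomial (Fin d) ℂ) →ₐ[MvPolynomial (Fin d) ℂ] S) :
      Polynomial (MvPolynomial (Fin d) ℂ) →+* S).toAlgebra
  have halg : ∀ p : Polynomial (MvPolynomial (Fin d) ℂ),
      algebraMap (Polynomial (MvPolynomial (Fin d) ℂ)) S p = Polynomial.aeval s p := fun _ => rfl
  have : IsScalarTower (MvPolynomial (Fin d) ℂ) (Polynomial (MvPolynomial (Fin d) ℂ)) S := by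
    refine IsScalarTower.of_algebraMap_eq fun r => ?_
    rw [halg]
    simp
  have : Algebra.IsIntegral (Polynomial (MvPolynomial (Fin d) ℂ)) S :=
    Algebra.IsIntegral.tower_top (R := MvPolynomial (Fin d) ℂ)
  have : Algebra.FiniteType ℂ S := finiteType (d := d)
  let φ : Polynomial (MvPolynomial (Fin d) ℂ) →+* ℂ := Polynomial.eval₂RingHom (eval u) lam
  have hφ : Function.Surjective φ := fun z => ⟨Polynomial.C (C z), by simp [φ]⟩
  have hmax : (RingHom.ker φ).IsMaximal := RingHom.ker_isMaximal_of_surjective φ hφ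
  have hker : RingHom.ker (algebraMap (Polynomial (MvPolynomial (Fin d) ℂ)) S) ≤ RingHom.ker φ := by
    have h1 := minpoly.ker_eval (R := MvPolynomial (Fin d) ℂ) (s := s)
      (Algebra.IsIntegral.isIntegral s)
    have h2 : RingHom.ker (algebraMap (Polynomial (MvPolynomial (Fin d) ℂ)) S) =
        Ideal.span {minpoly (MvPolynomial (Fin d) ℂ) s} := h1
    rw [h2, Ideal.span_singleton_le_iff_mem, RingHom.mem_ker]
    simp only [φ, Polynomial.coe_eval₂RingHom]
    rwa [Polynomial.IsRoot.def, Polynomial.eval_map] at h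
  obtain ⟨Q, hQ, hQc⟩ := Ideal.exists_ideal_over_maximal_of_isIntegral (RingHom.ker φ) hker
  obtain ⟨y, hy⟩ := exists_char Q
  have key : ∀ p : Polynomial (MvPolynomial (Fin d) ℂ), φ p = 0 → y (Polynomial.aeval s p) = 0 := by
    intro p hp
    rw [hy, ← halg, ← Ideal.mem_comap, hQc, RingHom.mem_ker]
    exact hp
  refine ⟨y, ?_, ?_⟩
  · ext i
    have h1 := key (Polynomial.C (X i - C (u i))) (by simp [φ])
    rw [Polynomial.aeval_C, map_sub, map_sub, sub_eq_zero] at h1
    rw [pu, h1, apply_algebraMap]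
    simp
  · have h1 := key (Polynomial.X - Polynomial.C (C lam)) (by simp [φ])
    rw [map_sub, Polynomial.aeval_X, Polynomial.aeval_C, map_sub, sub_eq_zero,
      apply_algebraMap] at h1
    simpa using h1

variable (K L : Type*) [Field K] [Field L] [Algebra (MvPolynomial (Fin d) ℂ) K]
  [IsFractionRing (MvPolynomial (Fin d) ℂ) K] [Algebra S L] [IsFractionRing S L] [Algebra K L]
  [Algebra (MvPolynomial (Fin d) ℂ) L] [IsScalarTower (MvPolynomial (Fin d) ℂ) K L]
  [IsScalarTower (MvPolynomial (Fin d) ℂ) S L] [FiniteDimensional K L]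

omit [IsFractionRing S L] in
/-- The trace of `s ∈ S` lies in `R` and is bounded by the values of `s` on the fibres. -/
theorem exists_trace (s : S) : ∃ τ : MvPolynomial (Fin d) ℂ,
    algebraMap (MvPolynomial (Fin d) ℂ) K τ = Algebra.trace K L (algebraMap S L s) ∧
    ∃ D : ℝ, 0 ≤ D ∧ ∀ (u : Fin d → ℂ) (B : ℝ),
      (∀ y : S →ₐ[ℂ] ℂ, pu y = u → ‖y s‖ ≤ B) → ‖eval u τ‖ ≤ D * B := by
  set μ := minpoly (MvPolynomial (Fin d) ℂ) s with hμ
  have hint : IsIntegral (MvPolynomial (Fin d) ℂ) s := Algebra.IsIntegral.isIntegral s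
  have hmon : μ.Monic := minpoly.monic hint
  set x : L := algebraMap S L s with hx
  set n : ℕ := Module.finrank (IntermediateField.adjoin K {x}) L with hn
  refine ⟨(n : MvPolynomial (Fin d) ℂ) * -μ.nextCoeff, ?_, n * μ.natDegree, by positivity, ?_⟩
  · rw [trace_eq_finrank_mul_minpoly_nextCoeff, hx,
      minpoly.isIntegrallyClosed_eq_field_fractions K L hint, ← hμ, map_mul, map_natCast, map_neg,
      Polynomial.nextCoeff_map_of_leadingCoeff_ne_zero _ (by rw [hmon.leadingCoeff]; simp)]
  · intro u B hB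
    set q := μ.map (eval u) with hq
    have hqm : q.Monic := hmon.map _
    have hB0 : ∀ z ∈ q.roots, ‖z‖ ≤ B := by
      intro z hz
      obtain ⟨y, hy, hys⟩ := exists_char_of_isRoot s u z (Polynomial.isRoot_of_mem_roots hz)
      rw [← hys]
      exact hB y hy
    have h1 : q.nextCoeff = eval u μ.nextCoeff :=
      Polynomial.nextCoeff_map_of_leadingCoeff_ne_zero _ (by rw [hmon.leadingCoeff]; simp)
    have h2 : q.nextCoeff = -q.roots.sum :=
      (IsAlgClosed.splits q).nextCoeff_eq_neg_sum_roots_of_monic hqm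
    have h3 : eval u ((n : MvPolynomial (Fin d) ℂ) * -μ.nextCoeff) = n * q.roots.sum := by
      rw [map_mul, map_natCast, map_neg, ← h1, h2, neg_neg]
    have h4 : ‖q.roots.sum‖ ≤ q.roots.card • B := by
      refine (norm_multiset_sum_le _).trans ?_
      refine (Multiset.sum_le_card_nsmul _ B ?_).trans ?_
      · intro z hz
        obtain ⟨w, hw, rfl⟩ := Multiset.mem_map.1 hz
        exact hB0 w hw
      · rw [Multiset.card_map]
    have h5 : q.roots.card = μ.natDegree := by
      rw [← (IsAlgClosed.splits q).natDegree_eq_card_roots, hq, hmon.natDegree_map]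
    rw [h3, norm_mul, Complex.norm_natCast, mul_assoc]
    rw [h5, nsmul_eq_mul] at h4
    gcongr

end Domain

end Groth.Agent.Gaga.H145.Chars
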