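import Mathlib.RingTheory.Discriminant
import Mathlib.RingTheory.Algebraic.Integral
import Mathlib.LinearAlgebra.Matrix.Adjugate
import Mathlib.LinearAlgebra.Basis.VectorSpace
import Mathlib.RingTheory.Localization.FractionRing

/-!
# Discriminant trick

`S` is a domain, integral over a domain `R`, with separable extension of fraction fields `L / K`
and traces of elements of `S` in `R`.  There is `δ ≠ 0` in `R` such that `Tr(g b) ∈ J` for
all `b ∈ S` implies `δ g ∈ J S`.
-/

set_option autoImplicit false

namespace Groth.Agent.Gaga.H145.TraceDual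

variable {R S : Type*} [CommRing R] [IsDomain R] [CommRing S] [IsDomain S] [Algebra R S]
  [Module.IsTorsionFree R S] [Algebra.IsIntegral R S]
  (K L : Type*) [Field K] [Field L] [Algebra R K] [IsFractionRing R K] [Algebra S L]
  [IsFractionRing S L] [Algebra K L] [Algebra R L] [IsScalarTower R K L] [IsScalarTower R S L]
  [FiniteDimensional K L] [Algebra.IsSeparable K L]

variable (R) in
include R in
omit [FiniteDimensional K L] [Algebra.IsSeparable K L] in
theorem span_range_eq_top : (⊤ : Submodule K L) ≤ Submodule.span K (Set.range (algebraMap S L)) := by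
  rintro x -
  obtain ⟨a, b, hb, rfl⟩ := IsFractionRing.div_surjective (A := S) x
  have hb0 : b ≠ 0 := nonZeroDivisors.ne_zero hb
  obtain ⟨t, -, r, hr, hrt⟩ := IsAlgebraic.exists_nonzero_eq_adjoin_mul
    (R := R) (s := b) ((Algebra.IsIntegral.isIntegral b).isAlgebraic) hb
  have hrK : algebraMap R K r ≠ 0 := by
    rw [Ne, IsFractionRing.to_map_eq_zero_iff]
    exact hr
  have hbL : algebraMap S L b ≠ 0 := by
    rw [Ne, IsFractionRing.to_map_eq_zero_iff]
    exact hb0
  have h1 : algebraMap S L a / algebraMap S L b =
      (algebraMap R K r)⁻¹ • algebraMap S L (a * t) := by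
    rw [Algebra.smul_def, map_inv₀, ← IsScalarTower.algebraMap_apply R K L,
      IsScalarTower.algebraMap_apply R S L, ← hrt, map_mul, map_mul]
    have htL : algebraMap S L t ≠ 0 := by
      intro h0
      rw [IsFractionRing.to_map_eq_zero_iff] at h0
      rw [h0, mul_zero] at hrt
      exact hr ((FaithfulSMul.algebraMap_eq_zero_iff R S).1 hrt.symm)
    field_simp
  rw [h1]
  exact Submodule.smul_mem _ _ (Submodule.subset_span ⟨_, rfl⟩)

variable (R) in
include R in
omit [FiniteDimensional K L] [Algebra.IsSeparable K L] in
theorem finiteDimensional [Module.Finite R S] : FiniteDimensional K L := by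
  classical
  obtain ⟨G, hG⟩ : (⊤ : Submodule R S).FG := Module.Finite.fg_top
  refine ⟨⟨G.image (algebraMap S L), top_le_iff.1 ?_⟩⟩
  refine (span_range_eq_top R (S := S) K L).trans ?_
  rw [Submodule.span_le]
  rintro _ ⟨s, rfl⟩
  have hs : s ∈ Submodule.span R (G : Set S) := by rw [hG]; trivial
  refine Submodule.span_induction (p := fun s _ => algebraMap S L s ∈
    (Submodule.span K ((G.image (algebraMap S L) : Finset L) : Set L) : Set L)) ?_ ?_ ?_ ?_ hs
  · intro z hz
    exact Submodule.subset_span (by rw [Finset.coe_image]; exact ⟨z, hz, rfl⟩)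
  · simp
  · intro a b _ _ ha hb
    rw [map_add]
    exact Submodule.add_mem _ ha hb
  · intro a b _ hb
    rw [Algebra.smul_def, map_mul, ← IsScalarTower.algebraMap_apply R S L,
      IsScalarTower.algebraMap_apply R K L, ← Algebra.smul_def]
    exact Submodule.smul_mem _ _ hb

theorem exists_discr
    (hT : ∀ s : S, ∃ τ : R, algebraMap R K τ = Algebra.trace K L (algebraMap S L s)) :
    ∃ δ : R, δ ≠ 0 ∧ ∀ (g : S) (J : Ideal R),
      (∀ (b : S) (τ : R), algebraMap R K τ = Algebra.trace K L (algebraMap S L (g * b)) → τ ∈ J) →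
      algebraMap R S δ * g ∈ J.map (algebraMap R S) := by
  classical
  let β := Module.Basis.ofSpan (span_range_eq_top R (S := S) K L)
  have : Fintype _ := FiniteDimensional.fintypeBasisIndex β
  have hβ : ∀ i, ∃ b : S, algebraMap S L b = β i := fun i =>
    Module.Basis.ofSpan_subset (span_range_eq_top R (S := S) K L) (Set.mem_range_self i)
  choose b hb using hβ
  choose tr htr using hT
  let M := Matrix.of fun i j => tr (b i * b j)
  have hM : M.map (algebraMap R K) = Algebra.traceMatrix K β := by
    ext i j
    simp only [M, Matrix.map_apply, Matrix.of_apply, htr, Algebra.traceMatrix_apply,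
      Algebra.traceForm_apply, map_mul, hb]
  have hdet : algebraMap R K M.det = Algebra.discr K β := by
    rw [Algebra.discr_def, ← hM, RingHom.map_det]
    rfl
  have hd0 : M.det ≠ 0 := by
    intro h0
    rw [h0, map_zero] at hdet
    exact Algebra.discr_not_zero_of_basis K β hdet.symm
  refine ⟨M.det, hd0, fun g J hJ => ?_⟩
  -- coordinates
  let y := fun i => β.repr (algebraMap S L g) i
  let T := fun i => tr (g * b i)
  have hTJ : ∀ i, T i ∈ J := fun i => hJ (b i) _ (htr _)
  have hg : algebraMap S L g = ∑ j, y j • β j := (β.sum_repr _).symm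
  have hTy : ∀ i, algebraMap R K (T i) = ∑ j, algebraMap R K (M i j) * y j := by
    intro i
    rw [htr, map_mul, hb, hg, Finset.sum_mul, map_sum]
    refine Finset.sum_congr rfl fun j _ => ?_
    rw [smul_mul_assoc, LinearMap.map_smul, smul_eq_mul, mul_comm]
    congr 1
    simp only [M, Matrix.of_apply]
    rw [htr, map_mul (algebraMap S L), hb, hb, mul_comm]
  let c := fun j => ∑ i, M.adjugate j i * T i
  have hcJ : ∀ j, c j ∈ J := fun j => Ideal.sum_mem _ fun i _ => Ideal.mul_mem_left _ _ (hTJ i)
  have hc : ∀ j, algebraMap R K (c j) = algebraMap R K M.det * y j := by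
    intro j
    have h1 : algebraMap R K (c j) = ∑ i, ∑ k, algebraMap R K (M.adjugate j i * M i k) * y k := by
      simp only [c, map_sum, map_mul, hTy, Finset.mul_sum, mul_assoc]
    rw [h1, Finset.sum_comm]
    have h2 : ∀ k, ∑ i, algebraMap R K (M.adjugate j i * M i k) * y k =
        algebraMap R K ((M.adjugate * M) j k) * y k := by
      intro k
      rw [Matrix.mul_apply, map_sum, Finset.sum_mul]
    simp only [h2, Matrix.adjugate_mul, Matrix.smul_apply, Matrix.one_apply, smul_eq_mul]
    rw [Finset.sum_eq_single j]
    · simp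
    · intro k _ hk
      simp [hk.symm]
    · simp
  have hfin : algebraMap R S M.det * g = ∑ j, algebraMap R S (c j) * b j := by
    apply IsFractionRing.injective S L
    rw [map_mul, ← IsScalarTower.algebraMap_apply R S L, map_sum]
    simp only [map_mul, ← IsScalarTower.algebraMap_apply R S L, hb]
    rw [hg, Finset.mul_sum]
    refine Finset.sum_congr rfl fun j _ => ?_
    rw [IsScalarTower.algebraMap_apply R K L (c j), hc, map_mul,
      ← IsScalarTower.algebraMap_apply R K L, Algebra.smul_def, mul_assoc]
  rw [hfin]
  exact Ideal.sum_mem _ fun j _ => Ideal.mul_mem_right _ _ (Ideal.mem_map_of_mem _ (hcJ j))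

end Groth.Agent.Gaga.H145.TraceDual
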