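import Groth.Agent.Gaga.H145.PolyOrder
import Groth.Agent.Gaga.H145.Chars
import Groth.Agent.Gaga.H145.TraceDual
import Mathlib.RingTheory.Filtration
import Mathlib.RingTheory.Ideal.MinimalPrime.Localization
import Mathlib.RingTheory.NoetherNormalization
import Mathlib.RingTheory.Noetherian.Basic
import Mathlib.FieldTheory.Perfect
import Mathlib.Algebra.CharP.Algebra
import Mathlib.RingTheory.Localization.Submodule
import Mathlib.RingTheory.Ideal.IsPrimary

/-!
# Small functions at a point of an affine variety: the domain case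

`S` is a finite type `ℂ`-algebra, `x` a `ℂ`-point, `t_j` generators of the maximal ideal `m`.  A function
`f ∈ S` is `N`-small at `x` if `‖f(y)‖ ≤ C ‖t(y)‖ ^ N` for the `ℂ`-points `y` near `x`.  For `S` a
domain, for every `n` there is `N` such that `N`-small functions lie in `m ^ n`.
-/

set_option autoImplicit false

open MvPolynomial

namespace Groth.Agent.Gaga.H145.DomainCase

open Groth.Agent.Gaga.H145.PolyOrder Groth.Agent.Gaga.H145.Chars Groth.Agent.Gaga.H145.TraceDual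

/-- `f` is `N`-small at the common zero of the `t_j`. -/
def Small {S : Type*} [CommRing S] [Algebra ℂ S] {ι : Type*} [Fintype ι] (t : ι → S) (N : ℕ)
    (f : S) : Prop :=
  ∃ C η : ℝ, 0 < η ∧ ∀ y : S →ₐ[ℂ] ℂ, ‖fun j => y (t j)‖ < η → ‖y f‖ ≤ C * ‖fun j => y (t j)‖ ^ N

theorem exists_mul_pow_le {S : Type*} [CommRing S] [IsNoetherianRing S] (I m : Ideal S)
    [hm : m.IsPrime] (h : m ∈ I.minimalPrimes) :
    ∃ q : S, q ∉ m ∧ ∃ M : ℕ, ∀ z ∈ m ^ M, q * z ∈ I := by
  classical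
  let A := Localization.AtPrime m
  have hA : IsNoetherianRing A := IsLocalization.isNoetherianRing m.primeCompl A inferInstance
  have h1 : (I.map (algebraMap S A)).radical = m.map (algebraMap S A) :=
    IsLocalization.AtPrime.radical_map_of_mem_minimalPrimes A m I h
  obtain ⟨M, hM⟩ := Ideal.exists_radical_pow_le_of_fg (I.map (algebraMap S A))
    (IsNoetherian.noetherian _)
  rw [h1, ← Ideal.map_pow] at hM
  obtain ⟨G, hG⟩ : (m ^ M).FG := IsNoetherian.noetherian _
  have h2 : ∀ z : S, z ∈ G → ∃ q : S, q ∉ m ∧ q * z ∈ I := by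
    intro z hz
    have hz' : z ∈ m ^ M := by rw [← hG]; exact Ideal.subset_span hz
    have h3 := hM (Ideal.mem_map_of_mem (algebraMap S A) hz')
    rw [IsLocalization.algebraMap_mem_map_algebraMap_iff m.primeCompl] at h3
    obtain ⟨q, hq, hqz⟩ := h3
    exact ⟨q, hq, hqz⟩
  choose! q hq hqz using h2
  refine ⟨∏ z ∈ G, q z, ?_, M, ?_⟩
  · rw [hm.prod_mem_iff]
    rintro ⟨z, hz, hz'⟩
    exact hq z hz hz'
  · intro z hz
    rw [← hG] at hz
    refine Submodule.span_induction (p := fun z _ => (∏ z ∈ G, q z) * z ∈ I) ?_ ?_ ?_ ?_ hz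
    · intro z hz
      rw [← Finset.prod_erase_mul _ _ hz, mul_assoc]
      exact Ideal.mul_mem_left _ _ (hqz z hz)
    · simp
    · intro a b _ _ ha hb
      rw [mul_add]
      exact I.add_mem ha hb
    · intro a b _ hb
      rw [smul_eq_mul, mul_left_comm]
      exact Ideal.mul_mem_left _ _ hb

theorem mem_pow_of_mul_mem_pow {S : Type*} [CommRing S] (m : Ideal S) [hm : m.IsMaximal] {q f : S}
    (hq : q ∉ m) (n : ℕ) (h : f * q ∈ m ^ n) : f ∈ m ^ n := by
  rcases Nat.eq_zero_or_pos n with rfl | hn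
  · simp
  have hrad : (m ^ n).radical = m := by
    rw [Ideal.radical_pow _ hn.ne', hm.isPrime.radical]
  have h1 : (m ^ n).IsPrimary := Ideal.isPrimary_of_isMaximal_radical (by rwa [hrad])
  rcases (Ideal.isPrimary_iff.1 h1).2 h with h2 | h2
  · exact h2
  · rw [hrad] at h2
    exact absurd h2 hq


section Core

variable {d : ℕ} {S : Type*} [CommRing S] [Algebra ℂ S] [Algebra (MvPolynomial (Fin d) ℂ) S]
  [IsScalarTower ℂ (MvPolynomial (Fin d) ℂ) S] [Module.Finite (MvPolynomial (Fin d) ℂ) S]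

theorem idealOfVars_eq : idealOfVars (Fin d) ℂ = RingHom.ker (eval (0 : Fin d → ℂ)) := by
  ext c
  rw [← pow_one (idealOfVars (Fin d) ℂ), mem_pow_idealOfVars_iff', RingHom.mem_ker,
    MvPolynomial.eval_zero, constantCoeff_eq]
  constructor
  · intro h
    exact h 0 (by simp)
  · intro h x hx
    have : x = 0 := by
      rwa [Nat.lt_one_iff, Finsupp.degree_eq_zero_iff] at hx
    rw [this, h]

/-- Elements of the ideal generated by the variables are `O(‖u‖)` over the unit polydisc. -/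
theorem exists_bound_of_mem (z : S)
    (hz : z ∈ (idealOfVars (Fin d) ℂ).map (algebraMap (MvPolynomial (Fin d) ℂ) S)) :
    ∃ C : ℝ, 0 ≤ C ∧ ∀ y : S →ₐ[ℂ] ℂ, ‖(pu y : Fin d → ℂ)‖ ≤ 1 →
      ‖y z‖ ≤ C * ‖(pu y : Fin d → ℂ)‖ := by
  rw [Ideal.map_span] at hz
  refine Submodule.span_induction (p := fun z _ => ∃ C : ℝ, 0 ≤ C ∧ ∀ y : S →ₐ[ℂ] ℂ,
    ‖(pu y : Fin d → ℂ)‖ ≤ 1 → ‖y z‖ ≤ C * ‖(pu y : Fin d → ℂ)‖) ?_ ?_ ?_ ?_ hz
  · rintro _ ⟨_, ⟨i, rfl⟩, rfl⟩
    refine ⟨1, zero_le_one, fun y _ => ?_⟩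
    rw [one_mul]
    exact norm_le_pi_norm (pu y) i
  · exact ⟨0, le_rfl, fun y _ => by simp⟩
  · rintro a b _ _ ⟨C, hC, h⟩ ⟨C', hC', h'⟩
    refine ⟨C + C', by positivity, fun y hy => ?_⟩
    rw [map_add, add_mul]
    exact (norm_add_le _ _).trans (add_le_add (h y hy) (h' y hy))
  · rintro a b _ ⟨C, hC, h⟩
    obtain ⟨C', hC', h'⟩ := exists_bound (d := d) a
    refine ⟨C' * C, by positivity, fun y hy => ?_⟩
    rw [smul_eq_mul, map_mul, norm_mul, mul_assoc]
    exact mul_le_mul (h' y hy) (h y hy) (norm_nonneg _) hC'.le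

/-- The sup norm of a finite family of complex numbers satisfies any `M`-th power bound which holds
for the members. -/
theorem norm_pow_mul_le {ι : Type*} [Fintype ι] (v : ι → ℂ) (a : ℝ) (ha : 0 ≤ a) (M : ℕ)
    (hM : 0 < M) (B : ℝ) (hB : 0 ≤ B) (h : ∀ j, (‖v j‖ * a) ^ M ≤ B) : (‖v‖ * a) ^ M ≤ B := by
  rcases isEmpty_or_nonempty ι with hι | hι
  · have h0 : ‖v‖ = 0 := by
      rw [norm_eq_zero]
      exact Subsingleton.elim _ _
    rw [h0, zero_mul, zero_pow hM.ne']
    exact hB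
  · obtain ⟨j, hj⟩ := Finite.exists_max (fun j => ‖v j‖)
    have h1 : ‖v‖ ≤ ‖v j‖ := (pi_norm_le_iff_of_nonneg (norm_nonneg _)).2 hj
    refine le_trans ?_ (h j)
    gcongr

variable [IsDomain S] [Module.IsTorsionFree (MvPolynomial (Fin d) ℂ) S]

/-- The core estimate. -/
theorem core (x : S →ₐ[ℂ] ℂ) (hx : (pu x : Fin d → ℂ) = 0) {ι : Type*} [Fintype ι] (t : ι → S)
    (ht : ∀ j, x (t j) = 0) :
    ∃ M c : ℕ, 0 < M ∧ ∀ (e : ℕ) (f : S), Small t (M * e) f → f ∈ (RingHom.ker x) ^ (e - c) := by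
  classical
  set R := MvPolynomial (Fin d) ℂ with hR
  set I : Ideal S := (idealOfVars (Fin d) ℂ).map (algebraMap R S) with hI
  set m : Ideal S := RingHom.ker x with hm
  have hmmax : m.IsMaximal := RingHom.ker_isMaximal_of_surjective x.toRingHom
    fun z => ⟨algebraMap ℂ S z, by simp⟩
  have : IsNoetherianRing S := IsNoetherianRing.of_finite R S
  have hunder : m.under R = idealOfVars (Fin d) ℂ := by
    ext c
    rw [Ideal.under_def, Ideal.mem_comap, idealOfVars_eq, RingHom.mem_ker, RingHom.mem_ker,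
      ← hx, ← apply_algebraMap]
  have hmin : m ∈ I.minimalPrimes := by
    have h1 := Ideal.IsIntegral.mem_minimalPrimes_map_under (R := R) m
    rwa [hunder] at h1
  obtain ⟨q, hq, M₀, hM₀⟩ := exists_mul_pow_le I m hmin
  obtain ⟨M, hM, hMz⟩ : ∃ M : ℕ, 0 < M ∧ ∀ z ∈ m ^ M, q * z ∈ I :=
    ⟨M₀ + 1, Nat.succ_pos _, fun z hz => hM₀ z (Ideal.pow_le_pow_right (Nat.le_succ _) hz)⟩
  have hIm : I ≤ m := hmin.1.2
  -- each `(t_j q)^M` lies in `I`
  have h1 : ∀ j, (t j * q) ^ M ∈ I := by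
    intro j
    have h2 : (t j * q) ^ M = q ^ (M - 1) * (q * t j ^ M) := by
      rw [mul_pow]
      obtain ⟨M', rfl⟩ : ∃ M', M = M' + 1 := ⟨M - 1, by omega⟩
      rw [Nat.add_sub_cancel]
      ring
    rw [h2]
    exact Ideal.mul_mem_left _ _ (hMz _ (Ideal.pow_mem_pow (ht j) _))
  choose Cj hCj0 hCj using fun j => exists_bound_of_mem (d := d) _ (h1 j)
  set C₁ : ℝ := ∑ j, Cj j with hC₁
  have hC₁0 : 0 ≤ C₁ := Finset.sum_nonneg fun j _ => hCj0 j
  have hT : ∀ y : S →ₐ[ℂ] ℂ, ‖(pu y : Fin d → ℂ)‖ ≤ 1 →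
      (‖fun j => y (t j)‖ * ‖y q‖) ^ M ≤ C₁ * ‖(pu y : Fin d → ℂ)‖ := by
    intro y hy
    refine norm_pow_mul_le _ _ (norm_nonneg _) M hM _ (by positivity) fun j => ?_
    have h2 := hCj j y hy
    rw [map_pow, map_mul, norm_pow, norm_mul] at h2
    refine h2.trans ?_
    gcongr
    exact Finset.single_le_sum (f := Cj) (fun j _ => hCj0 j) (Finset.mem_univ j)
  -- fraction fields
  let K := FractionRing R
  let L := FractionRing S
  let : Algebra K L := FractionRing.liftAlgebra R L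
  have : IsScalarTower R K L := FractionRing.isScalarTower_liftAlgebra R L
  have : FiniteDimensional K L := finiteDimensional R (S := S) K L
  have : CharZero K := IsFractionRing.charZero_of_isFractionRing R
  have htr := fun s : S => exists_trace (d := d) K L s
  obtain ⟨δ, hδ0, hδ⟩ := exists_discr (R := R) (S := S) K L (fun s => ⟨_, (htr s).choose_spec.1⟩)
  -- Artin-Rees
  obtain ⟨c, hc⟩ := Ideal.exists_pow_inf_eq_pow_smul I
    (Ideal.span {algebraMap R S δ} : Submodule S S)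
  refine ⟨M, c, hM, fun e f hf => ?_⟩
  by_cases hec : e < c
  · rw [Nat.sub_eq_zero_of_le hec.le, pow_zero, Ideal.one_eq_top]
    trivial
  push Not at hec
  obtain ⟨C, η, hη, hCη⟩ := hf
  set g := f * q ^ (M * e) with hg
  -- the estimate for `g`
  obtain ⟨Cf, hCf0, hCf⟩ := exists_bound (d := d) f
  have hgest : ∀ y : S →ₐ[ℂ] ℂ, ‖(pu y : Fin d → ℂ)‖ ≤ 1 →
      ‖y g‖ ≤ (|C| * C₁ ^ e + Cf * (C₁ / η ^ M) ^ e) * ‖(pu y : Fin d → ℂ)‖ ^ e := by
    intro y hy
    have hTy := hT y hy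
    set T : ℝ := ‖fun j => y (t j)‖ with hTdef
    set U : ℝ := ‖(pu y : Fin d → ℂ)‖ with hU
    have hU0 : 0 ≤ U := norm_nonneg _
    have hT0 : 0 ≤ T := norm_nonneg _
    have h3 : ‖y g‖ = ‖y f‖ * (‖y q‖ ^ M) ^ e := by
      rw [hg, map_mul, map_pow, norm_mul, norm_pow, pow_mul]
    rw [add_mul]
    rcases lt_or_ge T η with hlt | hge
    · have h4 := hCη y hlt
      have h5 : ‖y g‖ ≤ |C| * C₁ ^ e * U ^ e := by
        rw [h3]
        calc ‖y f‖ * (‖y q‖ ^ M) ^ e ≤ (C * T ^ (M * e)) * (‖y q‖ ^ M) ^ e := by gcongr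
          _ ≤ (|C| * T ^ (M * e)) * (‖y q‖ ^ M) ^ e := by gcongr; exact le_abs_self C
          _ = |C| * ((T * ‖y q‖) ^ M) ^ e := by rw [pow_mul]; ring
          _ ≤ |C| * (C₁ * U) ^ e := by gcongr
          _ = _ := by ring
      have h6 : 0 ≤ Cf * (C₁ / η ^ M) ^ e * U ^ e := by positivity
      linarith
    · have h4 : ‖y q‖ ^ M ≤ C₁ / η ^ M * U := by
        rw [div_mul_eq_mul_div, le_div_iff₀ (by positivity)]
        calc ‖y q‖ ^ M * η ^ M = (η * ‖y q‖) ^ M := by ring
          _ ≤ (T * ‖y q‖) ^ M := by gcongr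
          _ ≤ _ := hTy
      have h5 : ‖y g‖ ≤ Cf * (C₁ / η ^ M) ^ e * U ^ e := by
        rw [h3]
        calc ‖y f‖ * (‖y q‖ ^ M) ^ e ≤ Cf * (C₁ / η ^ M * U) ^ e := by
              gcongr
              exact hCf y hy
          _ = _ := by ring
      have h6 : 0 ≤ |C| * C₁ ^ e * U ^ e := by positivity
      linarith
  set C₃ : ℝ := |C| * C₁ ^ e + Cf * (C₁ / η ^ M) ^ e with hC₃
  have hC₃0 : 0 ≤ C₃ := by positivity
  have h7 : algebraMap R S δ * g ∈ (idealOfVars (Fin d) ℂ ^ e).map (algebraMap R S) := by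
    refine hδ g _ fun b τ hτ => ?_
    obtain ⟨τ', hτ', D, hD0, hD⟩ := htr (g * b)
    have hττ : τ = τ' := IsFractionRing.injective R K (hτ.trans hτ'.symm)
    subst hττ
    obtain ⟨Cb, hCb0, hCb⟩ := exists_bound (d := d) b
    refine mem_pow_of_bound τ e (D * (C₃ * Cb)) fun u hu => ?_
    have h8 := hD u (C₃ * ‖u‖ ^ e * Cb) (by
      intro y hy
      rw [map_mul, norm_mul]
      have hy1 : ‖(pu y : Fin d → ℂ)‖ ≤ 1 := by rw [hy]; exact hu.le
      have h9 := hgest y hy1
      rw [hy] at h9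
      have h10 := hCb y hy1
      gcongr)
    calc _ ≤ _ := h8
      _ = _ := by ring
  rw [Ideal.map_pow] at h7
  have h8 : algebraMap R S δ * g ∈ I ^ e • (⊤ : Submodule S S) ⊓
      (Ideal.span {algebraMap R S δ} : Submodule S S) := by
    refine ⟨?_, ?_⟩
    · simpa using h7
    · exact Ideal.mul_mem_right _ _ (Ideal.mem_span_singleton_self _)
  rw [hc e hec] at h8
  have h9 : algebraMap R S δ * g ∈ I ^ (e - c) * Ideal.span {algebraMap R S δ} := by
    have h10 : I ^ (e - c) • (I ^ c • (⊤ : Submodule S S) ⊓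
        (Ideal.span {algebraMap R S δ} : Submodule S S)) ≤
        I ^ (e - c) • (Ideal.span {algebraMap R S δ} : Submodule S S) :=
      Submodule.smul_mono le_rfl inf_le_right
    exact h10 h8
  rw [Ideal.mem_mul_span_singleton] at h9
  obtain ⟨z, hz, hzg⟩ := h9
  have hδS : algebraMap R S δ ≠ 0 := by
    rwa [Ne, FaithfulSMul.algebraMap_eq_zero_iff]
  have h10 : z = g := by
    have h11 : z * algebraMap R S δ = g * algebraMap R S δ := by rw [hzg, mul_comm]
    exact mul_right_cancel₀ hδS h11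
  rw [h10] at hz
  have h12 : f * q ^ (M * e) ∈ m ^ (e - c) := Ideal.pow_right_mono hIm _ hz
  refine mem_pow_of_mul_mem_pow m ?_ _ h12
  intro h13
  exact hq (hmmax.isPrime.mem_of_pow_mem _ h13)

end Core


/-- Translation of the variables. -/
noncomputable def shift {d : ℕ} (a : Fin d → ℂ) : MvPolynomial (Fin d) ℂ →ₐ[ℂ] MvPolynomial (Fin d) ℂ :=
  MvPolynomial.aeval fun i => X i - C (a i)

theorem shift_shift_neg {d : ℕ} (a : Fin d → ℂ) (p : MvPolynomial (Fin d) ℂ) :
    shift a (shift (-a) p) = p := by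
  have h : (shift a).comp (shift (-a)) = AlgHom.id ℂ _ := by
    refine MvPolynomial.algHom_ext fun i => ?_
    simp only [shift, AlgHom.comp_apply, aeval_X, AlgHom.coe_id, id_eq, Pi.neg_apply,
      map_neg, sub_neg_eq_add, map_add]
    have h1 : (MvPolynomial.aeval fun i => X i - C (a i)) (C (a i) : MvPolynomial (Fin d) ℂ) = C (a i) := by
      rw [aeval_C]
      rfl
    rw [h1]
    ring
  exact DFunLike.congr_fun h p

/-- **Domain case.**  For a finite type domain over `ℂ` and a point `x`, for every `n` there is `N`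
such that functions which are `N`-small at `x` lie in `m_x ^ n`. -/
theorem domain_case {S : Type*} [CommRing S] [IsDomain S] [Algebra ℂ S] [Algebra.FiniteType ℂ S]
    (x : S →ₐ[ℂ] ℂ) {ι : Type*} [Fintype ι] (t : ι → S) (ht : ∀ j, x (t j) = 0) (n : ℕ) :
    ∃ N : ℕ, ∀ f : S, Small t N f → f ∈ (RingHom.ker x) ^ n := by
  obtain ⟨d, g, hginj, hgfin⟩ := exists_finite_inj_algHom_of_fg ℂ S
  let a : Fin d → ℂ := fun i => x (g (X i))
  let g' : MvPolynomial (Fin d) ℂ →ₐ[ℂ] S := g.comp (shift a)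
  have hsinj : Function.Injective (shift a) := by
    have h1 := shift_shift_neg (-a)
    rw [neg_neg] at h1
    exact Function.LeftInverse.injective h1
  have hssurj : Function.Surjective (shift a) := fun p => ⟨_, shift_shift_neg a p⟩
  have hg'inj : Function.Injective g' := hginj.comp hsinj
  have hg'fin : g'.toRingHom.Finite :=
    RingHom.Finite.comp hgfin (RingHom.Finite.of_surjective _ hssurj)
  let : Algebra (MvPolynomial (Fin d) ℂ) S := g'.toRingHom.toAlgebra
  have halg : ∀ p, algebraMap (MvPolynomial (Fin d) ℂ) S p = g' p := fun _ => rfl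
  have : IsScalarTower ℂ (MvPolynomial (Fin d) ℂ) S := by
    refine IsScalarTower.of_algebraMap_eq fun z => ?_
    rw [halg]
    simp
  have : Module.Finite (MvPolynomial (Fin d) ℂ) S := hg'fin
  have : FaithfulSMul (MvPolynomial (Fin d) ℂ) S :=
    (faithfulSMul_iff_algebraMap_injective _ _).2 hg'inj
  have hx : (pu x : Fin d → ℂ) = 0 := by
    ext i
    simp only [pu, halg, g', shift, AlgHom.comp_apply, aeval_X, map_sub, Pi.zero_apply]
    have h1 : x (g (C (a i))) = a i := by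
      have h2 : g (C (a i)) = algebraMap ℂ S (a i) := g.commutes (a i)
      rw [h2]
      simp
    rw [h1]
    simp [a]
  obtain ⟨M, c, hM, h⟩ := core (d := d) x hx t ht
  refine ⟨M * (n + c), fun f hf => ?_⟩
  have h1 := h (n + c) f hf
  rwa [Nat.add_sub_cancel] at h1

end Groth.Agent.Gaga.H145.DomainCase
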