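import Mathlib.Analysis.Complex.CauchyIntegral
import Mathlib.Analysis.Complex.Schwarz
import Mathlib.Analysis.Calculus.ParametricIntervalIntegral
import Mathlib.Analysis.Calculus.FDeriv.Measurable
import Mathlib.Topology.MetricSpace.ProperSpace.Lemmas

/-!
# Holomorphic dependence of integrals on parameters, and the Hadamard lemma
-/

namespace Groth.Agent.Gaga.H145.Hadamard

open Set Metric Topology MeasureTheory intervalIntegral Filter Complex
open scoped Interval

variable {n : ℕ}

/-- The derivative with respect to the parameter is measurable. -/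
theorem aesm_of_hasFDerivAt {F : (Fin n → ℂ) → ℝ → ℂ} {F' : ℝ → (Fin n → ℂ) →L[ℂ] ℂ}
    {w₀ : Fin n → ℂ} {μ : Measure ℝ}
    (hF : ∀ᶠ w in 𝓝 w₀, AEStronglyMeasurable (F w) μ)
    (hF' : ∀ᵐ t ∂μ, HasFDerivAt (fun w => F w t) (F' t) w₀) :
    AEStronglyMeasurable F' μ := by
  classical
  -- components
  have key : ∀ v : Fin n → ℂ, AEStronglyMeasurable (fun t => F' t v) μ := by
    intro v
    have hc : Tendsto (fun k : ℕ => ‖(k : ℂ)‖) atTop atTop := by
      simpa using tendsto_natCast_atTop_atTop (R := ℝ)
    have hcinv : Tendsto (fun k : ℕ => ((k : ℂ))⁻¹) atTop (𝓝 0) :=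
      tendsto_inv₀_cobounded.comp (tendsto_norm_atTop_iff_cobounded.mp hc)
    set w : ℕ → (Fin n → ℂ) := fun k => w₀ + ((k : ℂ))⁻¹ • v with hw
    have hwt : Tendsto w atTop (𝓝 w₀) := by
      have : Tendsto (fun k : ℕ => w₀ + ((k : ℂ))⁻¹ • v) atTop (𝓝 (w₀ + (0 : ℂ) • v)) :=
        tendsto_const_nhds.add (hcinv.smul_const _)
      simpa using this
    obtain ⟨K, hK⟩ := eventually_atTop.mp (hwt.eventually hF)
    refine aestronglyMeasurable_of_tendsto_ae (u := atTop)
      (f := fun k t => ((k + K : ℕ) : ℂ) * (F (w (k + K)) t - F w₀ t)) ?_ ?_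
    · intro k
      have h1 : AEStronglyMeasurable (F (w (k + K))) μ := hK _ (Nat.le_add_left _ _)
      have h2 : AEStronglyMeasurable (F w₀) μ := hF.self_of_nhds
      exact (h1.sub h2).const_mul _
    · filter_upwards [hF'] with t ht
      exact (ht.lim v hc).comp (tendsto_add_atTop_nat K)
  have h2 : F' = fun t => ∑ i : Fin n, (F' t (Pi.single i 1)) •
      (ContinuousLinearMap.proj i : (Fin n → ℂ) →L[ℂ] ℂ) := by
    funext t
    refine ContinuousLinearMap.ext fun v => ?_
    have h3 := LinearMap.pi_apply_eq_sum_univ ((F' t : (Fin n → ℂ) →L[ℂ] ℂ) : (Fin n → ℂ) →ₗ[ℂ] ℂ) v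
    have h4 : ∀ i : Fin n, (fun j => if i = j then (1 : ℂ) else 0) = Pi.single i 1 := by
      intro i; funext j; simp [Pi.single_apply, eq_comm]
    simp only [h4, ContinuousLinearMap.coe_coe, smul_eq_mul] at h3
    rw [h3, _root_.sum_apply]
    refine Finset.sum_congr rfl fun i _ => ?_
    simp [mul_comm]
  rw [h2]
  refine Finset.aestronglyMeasurable_fun_sum _ fun i _ => ?_
  exact (key _).smul_const _

/-- An integral over an interval of a continuous function depending holomorphically on a
parameter is holomorphic in the parameter. -/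
theorem differentiableOn_integral {U : Set (Fin n → ℂ)} (hU : IsOpen U) {a b : ℝ}
    {F : (Fin n → ℂ) → ℝ → ℂ}
    (hc : ContinuousOn (fun p : (Fin n → ℂ) × ℝ => F p.1 p.2) (U ×ˢ uIcc a b))
    (hd : ∀ t ∈ uIcc a b, DifferentiableOn ℂ (fun w => F w t) U) :
    DifferentiableOn ℂ (fun w => ∫ t in a..b, F w t) U := by
  intro w₀ hw₀
  obtain ⟨R, hR, hRU⟩ : ∃ R > 0, closedBall w₀ R ⊆ U := by
    exact Metric.nhds_basis_closedBall.mem_iff.mp (hU.mem_nhds hw₀)
  -- bound on the closed ball
  obtain ⟨M, hM⟩ : ∃ M, ∀ p ∈ closedBall w₀ R ×ˢ uIcc a b, ‖F p.1 p.2‖ ≤ M := by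
    have hK : IsCompact (closedBall w₀ R ×ˢ uIcc a b) :=
      (isCompact_closedBall w₀ R).prod isCompact_uIcc
    exact hK.exists_bound_of_continuousOn
      (f := fun p : (Fin n → ℂ) × ℝ => F p.1 p.2) (hc.mono (prod_mono_left hRU))
  have hslice : ∀ w ∈ U, ContinuousOn (F w) (uIcc a b) := by
    intro w hw
    exact hc.comp (f := fun t => (w, t)) (by fun_prop) (fun t ht => ⟨hw, ht⟩)
  have hda : ∀ t ∈ uIcc a b, ∀ w ∈ U, HasFDerivAt (fun w => F w t) (fderiv ℂ (fun w => F w t) w) w :=
    fun t ht w hw => ((hd t ht).differentiableAt (hU.mem_nhds hw)).hasFDerivAt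
  have hsub : Ι a b ⊆ uIcc a b := uIoc_subset_uIcc
  have hmeas : ∀ᶠ w in 𝓝 w₀, AEStronglyMeasurable (F w) (volume.restrict (Ι a b)) := by
    filter_upwards [hU.mem_nhds hw₀] with w hw
    exact ((hslice w hw).mono hsub).aestronglyMeasurable measurableSet_uIoc
  have main := hasFDerivAt_integral_of_dominated_of_fderiv_le (𝕜 := ℂ) (μ := volume)
    (a := a) (b := b) (F := F)
    (F' := fun w t => fderiv ℂ (fun w => F w t) w) (x₀ := w₀) (s := ball w₀ (R / 2))
    (bound := fun _ => (2 * M) / (R / 2)) (ball_mem_nhds _ (by positivity)) hmeas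
    ((hslice w₀ hw₀).intervalIntegrable) ?_ ?_ intervalIntegrable_const ?_
  · exact main.differentiableAt.differentiableWithinAt
  · refine aesm_of_hasFDerivAt hmeas ?_
    refine (ae_restrict_iff' measurableSet_uIoc).mpr (Eventually.of_forall fun t ht => ?_)
    exact hda t (hsub ht) w₀ hw₀
  · refine Eventually.of_forall fun t ht w hw => ?_
    have hwR : ball w (R / 2) ⊆ closedBall w₀ R := by
      intro z hz
      rw [mem_ball] at hz hw
      rw [mem_closedBall]
      have := dist_triangle z w w₀
      linarith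
    refine norm_fderiv_le_div_of_mapsTo_ball (c := w) (R₁ := R / 2) (R₂ := 2 * M)
      ((hd t (hsub ht)).mono (hwR.trans hRU)) ?_ (by positivity)
    intro z hz
    rw [mem_closedBall, dist_eq_norm]
    have h1 := hM (z, t) ⟨hwR hz, hsub ht⟩
    have h2 := hM (w, t) ⟨hwR (mem_ball_self (by positivity)), hsub ht⟩
    refine (norm_sub_le _ _).trans ?_
    simp only at h1 h2
    linarith
  · refine Eventually.of_forall fun t ht w hw => ?_
    refine hda t (hsub ht) w (hRU ?_)
    rw [mem_ball] at hw
    rw [mem_closedBall]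
    linarith

/-- A circle integral of a continuous function depending holomorphically on a
parameter is holomorphic in the parameter. -/
theorem differentiableOn_circleIntegral {U : Set (Fin n → ℂ)} (hU : IsOpen U) {c : ℂ} {R : ℝ}
    (hR : 0 ≤ R) {F : (Fin n → ℂ) → ℂ → ℂ}
    (hc : ContinuousOn (fun p : (Fin n → ℂ) × ℂ => F p.1 p.2) (U ×ˢ sphere c R))
    (hd : ∀ ζ ∈ sphere c R, DifferentiableOn ℂ (fun w => F w ζ) U) :
    DifferentiableOn ℂ (fun w => ∮ ζ in C(c, R), F w ζ) U := by
  refine differentiableOn_integral hU (a := 0) (b := 2 * Real.pi)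
    (F := fun w θ => deriv (circleMap c R) θ • F w (circleMap c R θ)) ?_ ?_
  · have h1 : ContinuousOn (fun p : (Fin n → ℂ) × ℝ => deriv (circleMap c R) p.2)
        (U ×ˢ uIcc 0 (2 * Real.pi)) := by
      simp only [deriv_circleMap]
      fun_prop
    refine h1.smul ?_
    exact hc.comp (f := fun p : (Fin n → ℂ) × ℝ => (p.1, circleMap c R p.2)) (by fun_prop)
      (fun p hp => ⟨hp.1, circleMap_mem_sphere c hR _⟩)
  · intro t _
    have h := hd _ (circleMap_mem_sphere c hR t)
    simp only [smul_eq_mul]
    exact (differentiableOn_const _).mul h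

/-- The point whose first `k` coordinates are those of `w` and the others those of `a`. -/
def mix (a : Fin n → ℂ) (k : ℕ) (w : Fin n → ℂ) : Fin n → ℂ :=
  fun j => if j.1 < k then w j else a j

theorem mix_zero (a w : Fin n → ℂ) : mix a 0 w = a := by
  funext j; simp [mix]

theorem mix_n (a w : Fin n → ℂ) : mix a n w = w := by
  funext j; simp [mix]

theorem mix_succ (a w : Fin n → ℂ) (i : Fin n) :
    mix a (i.1 + 1) w = Function.update (mix a i.1 w) i (w i) := by
  funext j
  by_cases h : j = i
  · subst h; simp [mix]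
  · rw [Function.update_of_ne h]
    have : j.1 ≠ i.1 := fun h' => h (Fin.ext h')
    simp only [mix]
    congr 1
    exact propext ⟨fun h => by omega, fun h => by omega⟩

theorem mix_self (a w : Fin n → ℂ) (i : Fin n) :
    Function.update (mix a i.1 w) i (a i) = mix a i.1 w := by
  funext j
  by_cases h : j = i
  · subst h; simp [mix]
  · rw [Function.update_of_ne h]

theorem update_mem {a w : Fin n → ℂ} {R : ℝ} (hw : w ∈ closedBall a R) (i : Fin n) {z : ℂ}
    (hz : z ∈ closedBall (a i) R) :
    Function.update (mix a i.1 w) i z ∈ closedBall a R := by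
  have hR : 0 ≤ R := dist_nonneg.trans hz
  rw [mem_closedBall, dist_pi_le_iff hR]
  intro j
  by_cases h : j = i
  · subst h; simpa using hz
  · rw [Function.update_of_ne h, mix]
    split_ifs
    · exact (dist_le_pi_dist w a j).trans hw
    · simpa using hR

/-- The Hadamard lemma: a holomorphic function of several variables is, near a point, its value
plus a combination of the coordinates with holomorphic coefficients. -/
theorem hadamard_ball {a : Fin n → ℂ} {R : ℝ} (hR : 0 < R) {V : Set (Fin n → ℂ)}
    (hRV : closedBall a R ⊆ V) {G : (Fin n → ℂ) → ℂ} (hG : DifferentiableOn ℂ G V) :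
    ∃ H : Fin n → (Fin n → ℂ) → ℂ, (∀ i, DifferentiableOn ℂ (H i) (ball a R)) ∧
      ∀ w ∈ ball a R, G w = G a + ∑ i, (w i - a i) * H i w := by
  classical
  let F : Fin n → (Fin n → ℂ) → ℂ → ℂ := fun i w ζ =>
    ((ζ - w i)⁻¹ * (ζ - a i)⁻¹) * G (Function.update (mix a i.1 w) i ζ)
  have hmixd : ∀ (i : Fin n) (ζ : ℂ), Differentiable ℂ
      (fun w : Fin n → ℂ => Function.update (mix a i.1 w) i ζ) := by
    intro i ζ
    rw [differentiable_pi]
    intro j
    by_cases h : j = i
    · subst h; simp
    · simp only [Function.update_of_ne h, mix]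
      split_ifs <;> fun_prop
  have hmixc : ∀ (i : Fin n), Continuous
      (fun p : (Fin n → ℂ) × ℂ => Function.update (mix a i.1 p.1) i p.2) := by
    intro i
    refine continuous_pi fun j => ?_
    by_cases h : j = i
    · subst h; simpa using continuous_snd
    · simp only [Function.update_of_ne h, mix]
      split_ifs <;> fun_prop
  have hne : ∀ (i : Fin n) (w : Fin n → ℂ), w ∈ ball a R → ∀ ζ ∈ sphere (a i) R, ζ - w i ≠ 0 := by
    intro i w hw ζ hζ h
    have h1 : dist (w i) (a i) < R := (dist_le_pi_dist w a i).trans_lt hw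
    have h2 : dist ζ (a i) = R := hζ
    rw [sub_eq_zero.mp h] at h2
    linarith
  have hne' : ∀ (i : Fin n), ∀ ζ ∈ sphere (a i) R, ζ - a i ≠ 0 := by
    intro i ζ hζ h
    exact hne i a (mem_ball_self hR) ζ hζ h
  refine ⟨fun i w => (2 * Real.pi * I : ℂ)⁻¹ * ∮ ζ in C(a i, R), F i w ζ, fun i => ?_, ?_⟩
  · refine DifferentiableOn.mul (differentiableOn_const _) ?_
    refine differentiableOn_circleIntegral isOpen_ball hR.le ?_ ?_
    · refine ContinuousOn.mul (ContinuousOn.mul ?_ ?_) ?_
      · refine ContinuousOn.inv₀ (by fun_prop) (fun p hp => hne i p.1 hp.1 p.2 hp.2)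
      · refine ContinuousOn.inv₀ (by fun_prop) (fun p hp => hne' i p.2 hp.2)
      · refine hG.continuousOn.comp (hmixc i).continuousOn (fun p hp => hRV ?_)
        exact update_mem (ball_subset_closedBall hp.1) i (sphere_subset_closedBall hp.2)
    · intro ζ hζ
      refine DifferentiableOn.mul (DifferentiableOn.mul ?_ (differentiableOn_const _)) ?_
      · refine DifferentiableOn.inv (by fun_prop) (fun w hw => hne i w hw ζ hζ)
      · refine hG.comp (hmixd i ζ).differentiableOn (fun w hw => hRV ?_)
        exact update_mem (ball_subset_closedBall hw) i (sphere_subset_closedBall hζ)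
  · intro w hw
    have hstep : ∀ i : Fin n, (w i - a i) * ((2 * Real.pi * I : ℂ)⁻¹ * ∮ ζ in C(a i, R), F i w ζ) =
        G (mix a (i.1 + 1) w) - G (mix a i.1 w) := by
      intro i
      have hgd : DifferentiableOn ℂ (fun z => G (Function.update (mix a i.1 w) i z))
          (closedBall (a i) R) := by
        refine hG.comp ?_ (fun z hz => hRV (update_mem (ball_subset_closedBall hw) i hz))
        refine Differentiable.differentiableOn ?_
        rw [differentiable_pi]
        intro j
        by_cases h : j = i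
        · subst h; simp
        · simp only [Function.update_of_ne h]
          fun_prop
      have hwi : w i ∈ ball (a i) R := (dist_le_pi_dist w a i).trans_lt hw
      have e1 := hgd.circleIntegral_sub_inv_smul hwi
      have e2 := hgd.circleIntegral_sub_inv_smul (mem_ball_self hR)
      rw [← mix_succ, ] at e1
      rw [mix_self] at e2
      have hcs : ContinuousOn (fun z => G (Function.update (mix a i.1 w) i z)) (sphere (a i) R) :=
        hgd.continuousOn.mono sphere_subset_closedBall
      have ci1 : CircleIntegrable (fun z => (z - w i)⁻¹ • G (Function.update (mix a i.1 w) i z))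
          (a i) R := by
        refine ContinuousOn.circleIntegrable hR.le (ContinuousOn.fun_smul ?_ hcs)
        exact ContinuousOn.inv₀ (by fun_prop) (fun ζ hζ => hne i w hw ζ hζ)
      have ci2 : CircleIntegrable (fun z => (z - a i)⁻¹ • G (Function.update (mix a i.1 w) i z))
          (a i) R := by
        refine ContinuousOn.circleIntegrable hR.le (ContinuousOn.fun_smul ?_ hcs)
        exact ContinuousOn.inv₀ (by fun_prop) (fun ζ hζ => hne' i ζ hζ)
      have e3 : (w i - a i) • (∮ ζ in C(a i, R), F i w ζ) =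
          (2 * Real.pi * I : ℂ) • G (mix a (i.1 + 1) w) - (2 * Real.pi * I : ℂ) • G (mix a i.1 w) := by
        rw [← e1, ← e2, ← circleIntegral.integral_sub ci1 ci2, ← circleIntegral.integral_smul]
        refine circleIntegral.integral_congr hR.le ?_
        intro ζ hζ
        simp only [F, smul_eq_mul]
        have h1 := hne i w hw ζ hζ
        have h2 := hne' i ζ hζ
        field_simp
        ring
      have hpi : (2 * Real.pi * I : ℂ) ≠ 0 := by simp [Real.pi_ne_zero, I_ne_zero]
      simp only [smul_eq_mul] at e3 ⊢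
      field_simp
      linear_combination e3
    calc G w = G (mix a 0 w) + (G (mix a n w) - G (mix a 0 w)) := by rw [mix_n]; ring
      _ = G (mix a 0 w) + ∑ k ∈ Finset.range n, (G (mix a (k + 1) w) - G (mix a k w)) := by
        rw [Finset.sum_range_sub (fun k => G (mix a k w))]
      _ = _ := by
        rw [mix_zero, ← Fin.sum_univ_eq_sum_range (fun k => G (mix a (k + 1) w) - G (mix a k w)) n]
        congr 1
        exact Finset.sum_congr rfl fun i _ => (hstep i).symm

/-- The Hadamard lemma, local form. -/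
theorem hadamard {V : Set (Fin n → ℂ)} (hV : IsOpen V) {G : (Fin n → ℂ) → ℂ}
    (hG : DifferentiableOn ℂ G V) {a : Fin n → ℂ} (ha : a ∈ V) :
    ∃ V' ⊆ V, IsOpen V' ∧ a ∈ V' ∧ ∃ H : Fin n → (Fin n → ℂ) → ℂ,
      (∀ i, DifferentiableOn ℂ (H i) V') ∧ ∀ w ∈ V', G w = G a + ∑ i, (w i - a i) * H i w := by
  obtain ⟨R, hR, hRV⟩ := Metric.nhds_basis_closedBall.mem_iff.mp (hV.mem_nhds ha)
  obtain ⟨H, hH, hw⟩ := hadamard_ball hR hRV hG
  exact ⟨ball a R, ball_subset_closedBall.trans hRV, isOpen_ball, mem_ball_self hR, H, hH, hw⟩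

end Groth.Agent.Gaga.H145.Hadamard
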