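import Groth.Agent.Gaga.H145.Surj
import Groth.Agent.Gaga.H9.Germ

/-!
# The stalks of the sheaf of holomorphic functions are Noetherian
-/

set_option autoImplicit false
open CategoryTheory AlgebraicGeometry Topology TopologicalSpace Opposite Filter
open Groth.Agent.Gaga.H990.Stalk

noncomputable section

namespace Groth.Agent.Gaga.H145.Noeth

variable {X : Scheme.{0}} [X.Over An.SC]

theorem isNoetherianRing_holGerm {n : ℕ} (a : Fin n → ℂ) :
    IsNoetherianRing (Groth.Agent.Gaga.H145.Surj.HolGerm a) := by
  have h : Groth.Agent.Gaga.H145.Surj.HolGerm a = Groth.Agent.Gaga.H9.Germ.hol a := by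
    ext g
    exact Iff.rfl
  rw [h]
  exact Groth.Agent.Gaga.H9.Germ.isNoetherianRing_hol a

/-- **The stalks of the sheaf of holomorphic functions on `X(ℂ)` are Noetherian.** -/
theorem isNoetherianRing_stalk [LocallyOfFiniteType (X ↘ An.SC)] (x : An.Pts X) :
    IsNoetherianRing ((An.anSpace X).presheaf.stalk x) :=
  Groth.Agent.Gaga.H145.Surj.isNoetherianRing_stk_of x fun _ a => isNoetherianRing_holGerm a

end Groth.Agent.Gaga.H145.Noeth
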