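import Groth.Agent.Gaga.H990.Stalk
import Groth.Agent.An.H862.AffTop
import Mathlib.RingTheory.Noetherian.Basic
import Mathlib.Algebra.MvPolynomial.Eval
import Mathlib.Analysis.Calculus.Deriv.Inv
import Mathlib.Analysis.Calculus.FDeriv.Pow

/-!
# Holomorphic germs on a scheme are germs of functions of fixed algebra generators

For an affine open `U ∋ x` and generators `s₁, …, sₙ` of `Γ(X, U)` over `ℂ`, every holomorphic germ
at `x` is `G ∘ (s₁, …, sₙ)` with `G` differentiable near `s(x)`; hence the stalk of the sheaf of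
holomorphic functions is a quotient of the ring of germs of holomorphic functions on `ℂⁿ` at `s(x)`.
-/

set_option autoImplicit false
open CategoryTheory AlgebraicGeometry Topology TopologicalSpace Opposite Filter
open Groth.Agent.An.H863.PtsBasic Groth.Agent.An.H863.PtsCont
open Groth.Agent.Gaga.H990.ChartAt Groth.Agent.Gaga.H990.Stalk

noncomputable section

namespace Groth.Agent.Gaga.H145.Surj

variable {X : Scheme.{0}} [X.Over An.SC]

/-- The values of finitely many sections at a point. -/
def vals (U : X.Opens) {n : ℕ} (s : Fin n → Γ(X, U)) (z : An.Pts X) : Fin n → ℂ :=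
  fun i => evAt z U (s i)

lemma continuousAt_vals (U : X.Opens) {n : ℕ} (s : Fin n → Γ(X, U)) {x : An.Pts X}
    (hx : x.pt ∈ U) : ContinuousAt (vals U s) x :=
  continuousAt_pi_evAt U s hx

lemma evAt_eval₂ (U : X.Opens) {n : ℕ} (s : Fin n → Γ(X, U)) (p : MvPolynomial (Fin n) ℂ)
    {z : An.Pts X} (hz : z.pt ∈ U) :
    evAt z U (MvPolynomial.eval₂Hom (strU U) s p) = MvPolynomial.eval (vals U s z) p := by
  rw [evAt_of_mem hz]
  have h : (evHom z U hz).comp (MvPolynomial.eval₂Hom (strU U) s) =
      MvPolynomial.eval (vals U s z) := by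
    refine MvPolynomial.ringHom_ext (fun c => ?_) (fun i => ?_)
    · simp [evHom_apply]
    · simp [evHom_apply, vals, evAt_of_mem hz]
  exact congrArg (fun f => f p) h

lemma differentiable_eval {n : ℕ} (p : MvPolynomial (Fin n) ℂ) :
    Differentiable ℂ (fun c : Fin n → ℂ => MvPolynomial.eval c p) := by
  induction p using MvPolynomial.induction_on with
  | C c => simp only [MvPolynomial.eval_C]; exact differentiable_const _
  | add p q hp hq => simp only [map_add]; exact hp.add hq
  | mul_X p i hp =>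
    simp only [map_mul, MvPolynomial.eval_X]
    exact hp.mul (ContinuousLinearMap.proj (R := ℂ) (φ := fun _ : Fin n => ℂ) i).differentiable

/-- A regular function near `x` is, near `x`, a rational function of the generators. -/
lemma exists_fun_evAt {U : X.Opens} (hU : IsAffineOpen U) {n : ℕ} (s : Fin n → Γ(X, U))
    (hs : Function.Surjective (MvPolynomial.eval₂Hom (strU U) s)) {x : An.Pts X} (hx : x.pt ∈ U)
    (W : X.Opens) (hW : x.pt ∈ W) (f : Γ(X, W)) :
    ∃ R : (Fin n → ℂ) → ℂ, (∀ᶠ c in 𝓝 (vals U s x), DifferentiableAt ℂ R c) ∧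
      ∀ᶠ z in 𝓝 x, evAt z W f = R (vals U s z) := by
  obtain ⟨h, hh, hx'⟩ := hU.exists_basicOpen_le (V := W) ⟨x.pt, hW⟩ hx
  change x.pt ∈ X.basicOpen h at hx'
  have := hU.isLocalization_basicOpen h
  obtain ⟨m, a, ha⟩ := IsLocalization.Away.surj h (X.presheaf.map (homOfLE hh).op f)
  have hle : X.basicOpen h ≤ U := X.basicOpen_le h
  have hres : ∀ g : Γ(X, U), algebraMap Γ(X, U) Γ(X, X.basicOpen h) g =
      X.presheaf.map (homOfLE hle).op g := fun g => rfl
  have key : ∀ t : An.Pts X, t.pt ∈ X.basicOpen h →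
      evAt t W f = evAt t U a / evAt t U h ^ m := by
    intro t ht
    have htU : t.pt ∈ U := hle ht
    have htW : t.pt ∈ W := hh ht
    have hne : t.ev U htU h ≠ 0 := by rw [ev_ne_zero_iff]; exact ht
    rw [evAt_of_mem htU, evAt_of_mem htU, evAt_of_mem htW]
    rw [eq_div_iff (pow_ne_zero m hne)]
    have e := congrArg (fun s => t.ev (X.basicOpen h) ht s) ha
    simp only [hres, ev_mul, ev_pow, Groth.Agent.An.H863.PtsBasic.ev_res] at e
    exact e
  obtain ⟨p, hp⟩ := hs a
  obtain ⟨q, hq⟩ := hs h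
  have hq0 : MvPolynomial.eval (vals U s x) q ≠ 0 := by
    rw [← evAt_eval₂ U s q hx, hq, evAt_of_mem hx, ev_ne_zero_iff]
    exact hx'
  refine ⟨fun c => MvPolynomial.eval c p * (MvPolynomial.eval c q ^ m)⁻¹, ?_, ?_⟩
  · have hc : ∀ᶠ c in 𝓝 (vals U s x), MvPolynomial.eval c q ≠ 0 :=
      (differentiable_eval q).continuous.continuousAt.eventually_ne hq0
    filter_upwards [hc] with c hc
    exact DifferentiableAt.fun_mul (differentiable_eval p c)
      (DifferentiableAt.fun_inv ((differentiable_eval q c).fun_pow m) (pow_ne_zero m hc))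
  · filter_upwards [(An.Pts.isOpen_preimage_pt (X.basicOpen h)).mem_nhds hx'] with z hz
    have hz' : z.pt ∈ U := hle hz
    rw [key z hz, ← hp, ← hq, evAt_eval₂ U s p hz', evAt_eval₂ U s q hz', div_eq_mul_inv]

/-- A `ChartAt` function is, near `x`, a holomorphic function of fixed generators. -/
theorem exists_fun_of_chartAt {U : X.Opens} (hU : IsAffineOpen U) {n : ℕ} (s : Fin n → Γ(X, U))
    (hs : Function.Surjective (MvPolynomial.eval₂Hom (strU U) s)) {x : An.Pts X} (hx : x.pt ∈ U)
    {φ : An.Pts X → ℂ} (h : ChartAt φ x) :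
    ∃ G : (Fin n → ℂ) → ℂ, (∀ᶠ c in 𝓝 (vals U s x), DifferentiableAt ℂ G c) ∧
      ∀ᶠ z in 𝓝 x, φ z = G (vals U s z) := by
  obtain ⟨W, m, t, H, hW, hH, he⟩ := h
  choose R hR hRe using fun j => exists_fun_evAt hU s hs hx W hW (t j)
  have hRx : (fun j => evAt x W (t j)) = fun j => R j (vals U s x) :=
    funext fun j => (hRe j).self_of_nhds
  refine ⟨fun c => H (fun j => R j c), ?_, ?_⟩
  · have hd : ∀ᶠ c in 𝓝 (vals U s x), DifferentiableAt ℂ (fun c => fun j => R j c) c := by
      filter_upwards [eventually_all.2 hR] with c hc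
      exact differentiableAt_pi.2 hc
    have ht : Tendsto (fun c => fun j => R j c) (𝓝 (vals U s x))
        (𝓝 (fun j => evAt x W (t j))) := by
      rw [hRx]
      exact hd.self_of_nhds.continuousAt
    filter_upwards [hd, ht.eventually hH] with c h1 h2
    exact DifferentiableAt.comp c h2 h1
  · filter_upwards [he, eventually_all.2 hRe] with z h1 h2
    rw [h1]
    congr 1
    exact funext h2

/-- Composites with the generators are `ChartAt`. -/
lemma chartAt_comp_vals {U : X.Opens} {n : ℕ} (s : Fin n → Γ(X, U)) {x : An.Pts X} (hx : x.pt ∈ U)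
    {G : (Fin n → ℂ) → ℂ} (hG : ∀ᶠ c in 𝓝 (vals U s x), DifferentiableAt ℂ G c) :
    ChartAt (fun z => G (vals U s z)) x :=
  ⟨U, n, s, G, hx, hG, Eventually.of_forall fun _ => rfl⟩

/-- The ring of germs at `a` of functions of `n` complex variables differentiable near `a`. -/
def HolGerm {n : ℕ} (a : Fin n → ℂ) : Subring ((𝓝 a).Germ ℂ) where
  carrier := {g | ∃ G : (Fin n → ℂ) → ℂ, (∀ᶠ c in 𝓝 a, DifferentiableAt ℂ G c) ∧
    g = (G : (𝓝 a).Germ ℂ)}
  mul_mem' := by
    rintro _ _ ⟨F, hF, rfl⟩ ⟨G, hG, rfl⟩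
    exact ⟨F * G, by filter_upwards [hF, hG] with c h1 h2 using h1.mul h2, rfl⟩
  one_mem' := ⟨1, Eventually.of_forall fun c => differentiableAt_const _, rfl⟩
  add_mem' := by
    rintro _ _ ⟨F, hF, rfl⟩ ⟨G, hG, rfl⟩
    exact ⟨F + G, by filter_upwards [hF, hG] with c h1 h2 using h1.add h2, rfl⟩
  zero_mem' := ⟨0, Eventually.of_forall fun c => differentiableAt_const _, rfl⟩
  neg_mem' := by
    rintro _ ⟨F, hF, rfl⟩
    exact ⟨-F, by filter_upwards [hF] with c h1 using h1.neg, rfl⟩

/-- Pull-back of germs along a map continuous at a point. -/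
def pullGerm {T T' : Type*} [TopologicalSpace T] [TopologicalSpace T'] {f : T → T'} {x : T}
    (hf : ContinuousAt f x) : (𝓝 (f x)).Germ ℂ →+* (𝓝 x).Germ ℂ where
  toFun g := g.compTendsto f hf
  map_one' := rfl
  map_zero' := rfl
  map_mul' g h := by
    induction g using Germ.inductionOn
    induction h using Germ.inductionOn
    rfl
  map_add' g h := by
    induction g using Germ.inductionOn
    induction h using Germ.inductionOn
    rfl

lemma pullGerm_coe {T T' : Type*} [TopologicalSpace T] [TopologicalSpace T'] {f : T → T'} {x : T}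
    (hf : ContinuousAt f x) (G : T' → ℂ) :
    pullGerm hf (G : (𝓝 (f x)).Germ ℂ) = ((fun z => G (f z) : T → ℂ) : (𝓝 x).Germ ℂ) := rfl

/-- The holomorphic germs at `x` are exactly the pull-backs of holomorphic germs at `s(x)`. -/
theorem range_toGerm {U : X.Opens} (hU : IsAffineOpen U) {n : ℕ} (s : Fin n → Γ(X, U))
    (hs : Function.Surjective (MvPolynomial.eval₂Hom (strU U) s)) {x : An.Pts X} (hx : x.pt ∈ U) :
    ((pullGerm (continuousAt_vals U s hx)).comp (HolGerm (vals U s x)).subtype).range =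
      (toGerm x).range := by
  ext b
  constructor
  · rintro ⟨⟨_, G, hG, rfl⟩, rfl⟩
    exact (mem_range_toGerm_iff _).2 (chartAt_comp_vals s hx hG)
  · rintro ⟨b, rfl⟩
    obtain ⟨φ, hφ, hb⟩ := exists_chartAt_of_stk b
    obtain ⟨G, hG, he⟩ := exists_fun_of_chartAt hU s hs hx hφ
    refine ⟨⟨(G : (𝓝 (vals U s x)).Germ ℂ), G, hG, rfl⟩, ?_⟩
    rw [hb]
    exact (Germ.coe_eq.2 he).symm

/-- **Surjection from the holomorphic germs on affine space onto the stalk.** -/
def toStk {U : X.Opens} (hU : IsAffineOpen U) {n : ℕ} (s : Fin n → Γ(X, U))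
    (hs : Function.Surjective (MvPolynomial.eval₂Hom (strU U) s)) {x : An.Pts X} (hx : x.pt ∈ U) :
    HolGerm (vals U s x) →+* stk x :=
  ((RingEquiv.ofBijective (toGerm x).rangeRestrict
      ⟨fun _ _ h => toGerm_injective x (congrArg Subtype.val h),
        (toGerm x).rangeRestrict_surjective⟩).symm : (toGerm x).range →+* stk x).comp
    ((((pullGerm (continuousAt_vals U s hx)).comp (HolGerm (vals U s x)).subtype).codRestrict
      (toGerm x).range (fun g => by
        rw [← range_toGerm hU s hs hx]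
        exact ⟨g, rfl⟩)))

lemma toGerm_toStk {U : X.Opens} (hU : IsAffineOpen U) {n : ℕ} (s : Fin n → Γ(X, U))
    (hs : Function.Surjective (MvPolynomial.eval₂Hom (strU U) s)) {x : An.Pts X} (hx : x.pt ∈ U)
    (g : HolGerm (vals U s x)) :
    toGerm x (toStk hU s hs hx g) = pullGerm (continuousAt_vals U s hx) g.1 := by
  set e := RingEquiv.ofBijective (toGerm x).rangeRestrict
      ⟨fun _ _ h => toGerm_injective x (congrArg Subtype.val h),
        (toGerm x).rangeRestrict_surjective⟩ with he
  have h1 : ∀ r : (toGerm x).range, toGerm x (e.symm r) = r.1 := by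
    intro r
    have := e.apply_symm_apply r
    exact congrArg Subtype.val this
  exact h1 _

lemma toStk_surjective {U : X.Opens} (hU : IsAffineOpen U) {n : ℕ} (s : Fin n → Γ(X, U))
    (hs : Function.Surjective (MvPolynomial.eval₂Hom (strU U) s)) {x : An.Pts X} (hx : x.pt ∈ U) :
    Function.Surjective (toStk hU s hs hx) := by
  intro b
  have hb : toGerm x b ∈
      ((pullGerm (continuousAt_vals U s hx)).comp (HolGerm (vals U s x)).subtype).range := by
    rw [range_toGerm hU s hs hx]
    exact ⟨b, rfl⟩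
  obtain ⟨g, hg⟩ := hb
  refine ⟨g, toGerm_injective x ?_⟩
  rw [toGerm_toStk]
  exact hg

/-- For `X` locally of finite type there are an affine open neighbourhood of any complex point and
finitely many generators of its sections. -/
theorem exists_gens [LocallyOfFiniteType (X ↘ An.SC)] (x : An.Pts X) :
    ∃ (U : X.Opens) (_ : IsAffineOpen U) (_ : x.pt ∈ U) (n : ℕ) (s : Fin n → Γ(X, U)),
      Function.Surjective (MvPolynomial.eval₂Hom (strU U) s) := by
  obtain ⟨_, ⟨U, hU, rfl⟩, hx, -⟩ :=
    X.isBasis_affineOpens.exists_subset_of_mem_open (Set.mem_univ x.pt) isOpen_univ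
  obtain ⟨n, s, hs⟩ := Groth.Agent.An.H862.AffTop.exists_gen U hU
  exact ⟨U, hU, hx, n, s, hs⟩

/-- The stalks of the sheaf of holomorphic functions are Noetherian as soon as the rings of germs
of holomorphic functions on `ℂⁿ` are. -/
theorem isNoetherianRing_stk_of [LocallyOfFiniteType (X ↘ An.SC)] (x : An.Pts X)
    (H : ∀ (n : ℕ) (a : Fin n → ℂ), IsNoetherianRing (HolGerm a)) : IsNoetherianRing (stk x) := by
  obtain ⟨U, hU, hx, n, s, hs⟩ := exists_gens x
  have := H n (vals U s x)
  exact isNoetherianRing_of_surjective _ _ _ (toStk_surjective hU s hs hx)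

end Groth.Agent.Gaga.H145.Surj
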