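import Groth.Agent.Gaga.H145.OrdGerm
import Groth.Agent.Gaga.H145.Surj
import Groth.Agent.Gaga.H335.Chart
import Groth.Agent.Gaga.H980.Completion

/-!
# Order of vanishing of holomorphic germs at a point of a chart
-/

set_option autoImplicit false
open CategoryTheory AlgebraicGeometry Topology TopologicalSpace Opposite Filter Set IsLocalRing

noncomputable section

namespace Groth.Agent.Gaga.H145.Ord

open Groth.Agent.Gaga.H990.ChartAt Groth.Agent.Gaga.H990.Stalk
open Groth.Agent.Gaga.H981.BH Groth.Agent.Gaga.H335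
open Groth.Agent.Gaga.H980.Completion

variable {X : Scheme.{0}} [X.Over An.SC]

/-- The stalks of the sheaf of holomorphic functions are local rings. -/
instance isLocalRing_stk (x : An.Pts X) : IsLocalRing (stk x) := by
  have : Nontrivial (stk x) := RingHom.domain_nontrivial (val x)
  refine IsLocalRing.of_isUnit_or_isUnit_one_sub_self fun b => ?_
  by_cases h : val x b = 0
  · right
    refine isUnit_of_val_ne_zero ?_
    rw [map_sub, h, map_one, sub_zero]
    exact one_ne_zero
  · exact Or.inl (isUnit_of_val_ne_zero h)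

theorem maximalIdeal_stk (x : An.Pts X) : maximalIdeal (stk x) = RingHom.ker (val x) := by
  ext b
  rw [mem_maximalIdeal, mem_nonunits_iff, RingHom.mem_ker]
  constructor
  · intro h
    by_contra h'
    exact h (isUnit_of_val_ne_zero h')
  · intro h h'
    have := h'.map (val x)
    rw [h] at this
    exact not_isUnit_zero this

variable (c : Chart X) (a : Fin c.n → ℂ)

/-- Holomorphic germs at a point of a chart, as holomorphic germs on `ℂⁿ`. -/
def toHol : stk (c.pt a) →+* Groth.Agent.Gaga.H9.Germ.hol a :=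
  ((Groth.Agent.Gaga.H145.Surj.pullGerm c.emb.continuous.continuousAt).comp
    (toGerm (c.pt a))).codRestrict (Groth.Agent.Gaga.H9.Germ.hol a) (fun b => by
      obtain ⟨φ, hφ, hb⟩ := exists_chartAt_of_stk b
      refine ⟨fun z => φ (c.pt z), (c.chartAt φ a).1 hφ, ?_⟩
      rw [RingHom.comp_apply, hb]
      rfl)

lemma coe_toHol {b : stk (c.pt a)} {φ : An.Pts X → ℂ}
    (h : toGerm (c.pt a) b = (φ : Germ (𝓝 (c.pt a)) ℂ)) :
    (toHol c a b : Germ (𝓝 a) ℂ) = ((fun z => φ (c.pt z) : (Fin c.n → ℂ) → ℂ) : Germ (𝓝 a) ℂ) := by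
  change Groth.Agent.Gaga.H145.Surj.pullGerm c.emb.continuous.continuousAt (toGerm (c.pt a) b) = _
  rw [h]
  rfl

lemma toHol_injective : Function.Injective (toHol c a) := by
  intro b b' h
  obtain ⟨φ, hφ, hb⟩ := exists_chartAt_of_stk b
  obtain ⟨φ', hφ', hb'⟩ := exists_chartAt_of_stk b'
  have h1 := congrArg Subtype.val h
  rw [coe_toHol c a hb, coe_toHol c a hb'] at h1
  have h2 : ∀ᶠ z in 𝓝 a, φ (c.pt z) = φ' (c.pt z) := Germ.coe_eq.1 h1
  refine toGerm_injective _ ?_
  rw [hb, hb']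
  refine Germ.coe_eq.2 ?_
  have h3 : 𝓝 (c.pt a) = Filter.map c.pt (𝓝 a) := (c.emb.map_nhds_eq a).symm
  rw [Filter.EventuallyEq, h3, Filter.eventually_map]
  exact h2

lemma toHol_surjective : Function.Surjective (toHol c a) := by
  rintro ⟨_, G, hG, rfl⟩
  have h1 : ChartAt (fun x => G (c.coord x)) (c.pt a) := by
    rw [c.chartAt]
    simpa using hG
  obtain ⟨b, hb⟩ := exists_stk_of_chartAt h1
  refine ⟨b, Subtype.ext ?_⟩
  rw [coe_toHol c a hb]
  simp

/-- The stalk at a point of a chart is the ring of holomorphic germs. -/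
def equiv : stk (c.pt a) ≃+* Groth.Agent.Gaga.H9.Germ.hol a :=
  RingEquiv.ofBijective (toHol c a) ⟨toHol_injective c a, toHol_surjective c a⟩

@[simp] lemma equiv_apply (b : stk (c.pt a)) : equiv c a b = toHol c a b := rfl

/-- The stalks at points of a chart are Noetherian. -/
theorem isNoetherianRing_stk : IsNoetherianRing (stk (c.pt a)) :=
  have := Groth.Agent.Gaga.H9.Germ.isNoetherianRing_hol a
  isNoetherianRing_of_ringEquiv _ (equiv c a).symm

lemma val_toHol (b : stk (c.pt a)) : OrdGerm.val a (toHol c a b) = val (c.pt a) b := by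
  obtain ⟨φ, hφ, hb⟩ := exists_chartAt_of_stk b
  rw [val_eq hb, OrdGerm.val_eq a (coe_toHol c a hb)]

lemma mem_pow_iff_toHol (k : ℕ) (b : stk (c.pt a)) :
    b ∈ maximalIdeal (stk (c.pt a)) ^ k ↔ toHol c a b ∈ RingHom.ker (OrdGerm.val a) ^ k := by
  have h1 : maximalIdeal (stk (c.pt a)) = (RingHom.ker (OrdGerm.val a)).map (equiv c a).symm := by
    rw [maximalIdeal_stk, Ideal.map_symm]
    ext b
    rw [RingHom.mem_ker, Ideal.mem_comap, RingHom.mem_ker]
    exact (val_toHol c a b).symm ▸ Iff.rfl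
  rw [h1, ← Ideal.map_pow, Ideal.map_symm, Ideal.mem_comap]
  rfl

/-- **The powers of the maximal ideal are the germs vanishing to the given order.** -/
theorem mem_pow_iff (k : ℕ) (b : stk (c.pt a)) (φ : An.Pts X → ℂ)
    (h : toGerm (c.pt a) b = (φ : Germ (𝓝 (c.pt a)) ℂ)) :
    b ∈ maximalIdeal (stk (c.pt a)) ^ k ↔
      (fun z => φ (c.pt z)) =O[𝓝 a] fun z => ‖z - a‖ ^ k := by
  rw [mem_pow_iff_toHol, OrdGerm.mem_pow_iff a k _ _ (coe_toHol c a h)]

/-- Bounded holomorphic functions. -/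
theorem gbh_mem_iff (D : Opens (Fin c.n → ℂ)) (ha : a ∈ D) (k : ℕ)
    (f : BH (D : Set (Fin c.n → ℂ))) :
    c.gbh D a ha f ∈ maximalIdeal (stk (c.pt a)) ^ k ↔
      BH.ext f =O[𝓝 a] fun z => ‖z - a‖ ^ k := by
  rw [mem_pow_iff c a k _ _ (c.toGerm_gbh D a ha f)]
  simp

theorem isClosed_gbh (D : Opens (Fin c.n → ℂ)) (ha : a ∈ D) (k : ℕ) :
    IsClosed {f : BH (D : Set (Fin c.n → ℂ)) |
      c.gbh D a ha f ∈ maximalIdeal (stk (c.pt a)) ^ k} := by
  simp only [gbh_mem_iff]
  exact BH.isClosed_order D.isOpen ha k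

lemma toHol_algebraMap (z : ℂ) : toHol c a (algebraMap ℂ (stk (c.pt a)) z) =
    algebraMap ℂ (Groth.Agent.Gaga.H9.Germ.hol a) z := by
  apply Subtype.ext
  rw [coe_toHol c a (Chart.toGerm_algebraMap (c.pt a) z)]
  rfl

theorem finite_quot (k : ℕ) :
    Module.Finite ℂ (stk (c.pt a) ⧸ maximalIdeal (stk (c.pt a)) ^ k) := by
  have h := OrdGerm.finite_quot a k
  let e : (Groth.Agent.Gaga.H9.Germ.hol a ⧸ RingHom.ker (OrdGerm.val a) ^ k) ≃+*
      (stk (c.pt a) ⧸ maximalIdeal (stk (c.pt a)) ^ k) :=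
    Ideal.quotientEquiv _ _ (equiv c a).symm (by
      ext b
      rw [mem_pow_iff_toHol]
      refine Iff.trans ?_ (Ideal.mem_map_of_equiv (equiv c a).symm b).symm
      constructor
      · intro hb
        exact ⟨_, hb, (equiv c a).symm_apply_apply b⟩
      · rintro ⟨g, hg, rfl⟩
        have : toHol c a ((equiv c a).symm g) = g := (equiv c a).apply_symm_apply g
        rwa [← this] at hg)
  let f : (Groth.Agent.Gaga.H9.Germ.hol a ⧸ RingHom.ker (OrdGerm.val a) ^ k) →ₗ[ℂ]
      (stk (c.pt a) ⧸ maximalIdeal (stk (c.pt a)) ^ k) :=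
    { toFun := e
      map_add' := map_add e
      map_smul' := fun z g => by
        rw [RingHom.id_apply, Algebra.smul_def, Algebra.smul_def, map_mul]
        congr 1
        change Ideal.Quotient.mk _ ((equiv c a).symm (algebraMap ℂ _ z)) = Ideal.Quotient.mk _ _
        congr 1
        rw [RingEquiv.symm_apply_eq, equiv_apply, toHol_algebraMap] }
  exact Module.Finite.of_surjective f e.surjective

end Groth.Agent.Gaga.H145.Ord
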