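import Mathlib.RingTheory.MvPolynomial.Basic
import Mathlib.RingTheory.MvPolynomial.Homogeneous
import Mathlib.Algebra.MvPolynomial.Funext
import Mathlib.RingTheory.Ideal.Quotient.Operations
import Mathlib.RingTheory.Finiteness.Quotient
import Mathlib.Analysis.Asymptotics.Lemmas
import Mathlib.Analysis.Complex.Basic

/-!
# Polynomial representatives modulo powers of an ideal; polynomials of large order vanish
-/

set_option autoImplicit false
open Filter Topology MvPolynomial

namespace Groth.Agent.Gaga.H145.OrdAlg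

section Alg

variable {K R : Type*} [Field K] [CommRing R] [Algebra K R] {n : ℕ} (t : Fin n → R) (m : Ideal R)

/-- Elements of `m ^ k` are homogeneous polynomials of degree `k` in the generators modulo
`m ^ (k + 1)`. -/
theorem exists_homogeneous (hm : m = Ideal.span (Set.range t))
    (hc : ∀ r : R, ∃ c : K, r - algebraMap K R c ∈ m) (k : ℕ) :
    ∀ y ∈ m ^ k, ∃ q : MvPolynomial (Fin n) K, q.IsHomogeneous k ∧ y - aeval t q ∈ m ^ (k + 1) := by
  induction k with
  | zero =>
    intro y _
    obtain ⟨c, hc⟩ := hc y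
    refine ⟨C c, isHomogeneous_C _ _, ?_⟩
    simpa using hc
  | succ k ih =>
    intro y hy
    rw [pow_succ] at hy
    refine Submodule.mul_induction_on hy ?_ ?_
    · intro u hu v hv
      rw [hm, Ideal.mem_span_range_iff_exists_fun] at hv
      obtain ⟨a, rfl⟩ := hv
      choose q hq1 hq2 using fun i : Fin n => ih (u * a i) (Ideal.mul_mem_right _ _ hu)
      refine ⟨∑ i, q i * X i, ?_, ?_⟩
      · exact IsHomogeneous.sum _ _ _ fun i _ => (hq1 i).mul (isHomogeneous_X K i)
      · have h1 : u * ∑ i, a i * t i - aeval t (∑ i, q i * X i) =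
            ∑ i, (u * a i - aeval t (q i)) * t i := by
          rw [map_sum, Finset.mul_sum, ← Finset.sum_sub_distrib]
          refine Finset.sum_congr rfl fun i _ => ?_
          rw [map_mul, aeval_X]
          ring
        rw [h1]
        refine Ideal.sum_mem _ fun i _ => ?_
        rw [pow_succ m (k + 1)]
        refine Ideal.mul_mem_mul (hq2 i) ?_
        rw [hm]
        exact Ideal.subset_span ⟨i, rfl⟩
    · rintro y y' ⟨q, hq1, hq2⟩ ⟨q', hq1', hq2'⟩
      refine ⟨q + q', hq1.add hq1', ?_⟩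
      rw [map_add, add_sub_add_comm]
      exact Ideal.add_mem _ hq2 hq2'

/-- Every element is a polynomial of degree at most `k` in the generators modulo `m ^ (k + 1)`. -/
theorem exists_poly (hm : m = Ideal.span (Set.range t))
    (hc : ∀ r : R, ∃ c : K, r - algebraMap K R c ∈ m) (k : ℕ) (r : R) :
    ∃ p : MvPolynomial (Fin n) K, p.totalDegree ≤ k ∧ r - aeval t p ∈ m ^ (k + 1) := by
  induction k with
  | zero =>
    obtain ⟨c, hc⟩ := hc r
    exact ⟨C c, by simp, by simpa using hc⟩
  | succ k ih =>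
    obtain ⟨p, hp1, hp2⟩ := ih
    obtain ⟨q, hq1, hq2⟩ := exists_homogeneous t m hm hc (k + 1) _ hp2
    refine ⟨p + q, ?_, ?_⟩
    · exact (totalDegree_add _ _).trans (max_le (hp1.trans (Nat.le_succ k)) hq1.totalDegree_le)
    · rw [map_add, ← sub_sub]
      exact hq2

/-- The quotients by the powers of `m` are finite dimensional. -/
theorem finite_quot (hm : m = Ideal.span (Set.range t))
    (hc : ∀ r : R, ∃ c : K, r - algebraMap K R c ∈ m) (k : ℕ) : Module.Finite K (R ⧸ m ^ k) := by
  rcases k with _ | k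
  · rw [pow_zero, Ideal.one_eq_top]
    have : Subsingleton (R ⧸ (⊤ : Ideal R)) := Ideal.Quotient.subsingleton_iff.2 rfl
    infer_instance
  · let f : restrictTotalDegree (Fin n) K k →ₗ[K] (R ⧸ m ^ (k + 1)) :=
      (Ideal.Quotient.mkₐ K (m ^ (k + 1))).toLinearMap ∘ₗ (aeval t).toLinearMap ∘ₗ
        (restrictTotalDegree (Fin n) K k).subtype
    refine Module.Finite.of_surjective f fun r => ?_
    obtain ⟨r, rfl⟩ := Ideal.Quotient.mk_surjective r
    obtain ⟨p, hp1, hp2⟩ := exists_poly t m hm hc k r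
    refine ⟨⟨p, (mem_restrictTotalDegree _ _ _).2 hp1⟩, ?_⟩
    change Ideal.Quotient.mk (m ^ (k + 1)) (aeval t p) = Ideal.Quotient.mk (m ^ (k + 1)) r
    rw [eq_comm, Ideal.Quotient.eq]
    exact hp2

end Alg

section Order

theorem coeff_eq_zero (k : ℕ) : ∀ (c : ℕ → ℂ),
    ((fun t : ℂ => ∑ j ∈ Finset.range k, c j * t ^ j) =O[𝓝 0] fun t => t ^ k) →
    ∀ j < k, c j = 0 := by
  induction k with
  | zero => intro c _ j hj; exact absurd hj (Nat.not_lt_zero j)
  | succ k ih =>
    intro c h
    have hk : (fun t : ℂ => t ^ (k + 1)) =O[𝓝 0] fun t : ℂ => t ^ k := by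
      have h1 : (fun t : ℂ => t) =O[𝓝 0] (fun _ : ℂ => (1 : ℂ)) :=
        (continuous_id.tendsto (0 : ℂ)).isBigO_one ℂ
      have h2 := (Asymptotics.isBigO_refl (fun t : ℂ => t ^ k) (𝓝 0)).mul h1
      simpa [pow_succ] using h2
    have h3 : (fun t : ℂ => ∑ j ∈ Finset.range k, c j * t ^ j) =O[𝓝 0] fun t => t ^ k := by
      have h4 : (fun t : ℂ => c k * t ^ k) =O[𝓝 0] fun t : ℂ => t ^ k :=
        (Asymptotics.isBigO_refl _ _).const_mul_left _
      have h5 := (h.trans hk).sub h4
      refine h5.congr_left fun t => ?_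
      rw [Finset.sum_range_succ]
      ring
    have h6 := ih c h3
    intro j hj
    rcases Nat.lt_succ_iff_lt_or_eq.1 hj with hj | rfl
    · exact h6 j hj
    -- the last coefficient
    by_contra hne
    have h7 : (fun t : ℂ => c j * t ^ j) =O[𝓝 0] fun t : ℂ => t ^ (j + 1) := by
      refine h.congr_left fun t => ?_
      rw [Finset.sum_range_succ, Finset.sum_eq_zero, zero_add]
      intro i hi
      rw [h6 i (Finset.mem_range.1 hi), zero_mul]
    obtain ⟨C, hC⟩ := h7.bound
    have h8 : ∀ᶠ t : ℂ in 𝓝[≠] 0, ‖c j‖ ≤ C * ‖t‖ := by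
      filter_upwards [hC.filter_mono nhdsWithin_le_nhds, self_mem_nhdsWithin] with t ht ht0
      have ht0' : t ≠ 0 := ht0
      rw [norm_mul, norm_pow, norm_pow, pow_succ] at ht
      have hpos : 0 < ‖t‖ ^ j := pow_pos (norm_pos_iff.2 ht0') j
      refine le_of_mul_le_mul_right ?_ hpos
      linarith
    have h9 : Tendsto (fun t : ℂ => C * ‖t‖) (𝓝[≠] 0) (𝓝 0) := by
      have : Tendsto (fun t : ℂ => C * ‖t‖) (𝓝 0) (𝓝 (C * ‖(0 : ℂ)‖)) := by
        exact (continuous_const.mul continuous_norm).tendsto 0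
      simpa using this.mono_left nhdsWithin_le_nhds
    have h10 : ‖c j‖ ≤ 0 := ge_of_tendsto h9 h8
    exact hne (norm_le_zero_iff.1 h10)

theorem eval_smul_of_isHomogeneous {n j : ℕ} {q : MvPolynomial (Fin n) ℂ} (hq : q.IsHomogeneous j)
    (t : ℂ) (v : Fin n → ℂ) : eval (t • v) q = eval v q * t ^ j := by
  rw [eval_eq', eval_eq', Finset.sum_mul]
  refine Finset.sum_congr rfl fun d hd => ?_
  have h1 : ∑ i, d i = j := by
    have := hq (mem_support_iff.1 hd)
    rw [Pi.one_def, ← Finsupp.degree_eq_weight_one, Finsupp.degree_eq_sum] at this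
    exact this
  have h2 : ∏ i, (t • v) i ^ d i = t ^ j * ∏ i, v i ^ d i := by
    rw [← h1, ← Finset.prod_pow_eq_pow_sum, ← Finset.prod_mul_distrib]
    refine Finset.prod_congr rfl fun i _ => ?_
    rw [Pi.smul_apply, smul_eq_mul, mul_pow]
  rw [h2]
  ring

/-- A polynomial of degree at most `k` which is `O(‖z - a‖ ^ (k + 1))` near `a` vanishes. -/
theorem eq_zero_of_isBigO {n k : ℕ} (p : MvPolynomial (Fin n) ℂ) (hp : p.totalDegree ≤ k)
    (a : Fin n → ℂ)
    (h : (fun z : Fin n → ℂ => eval (z - a) p) =O[𝓝 a] fun z => ‖z - a‖ ^ (k + 1)) : p = 0 := by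
  refine MvPolynomial.funext fun v => ?_
  have h1 : ∀ t : ℂ, eval (t • v) p =
      ∑ j ∈ Finset.range (k + 1), eval v (homogeneousComponent j p) * t ^ j := by
    intro t
    have h2 : p = ∑ j ∈ Finset.range (k + 1), homogeneousComponent j p := by
      conv_lhs => rw [← sum_homogeneousComponent p]
      refine Finset.sum_subset (Finset.range_mono (by omega)) fun j _ hj => ?_
      refine homogeneousComponent_eq_zero _ _ ?_
      simpa [Nat.lt_succ_iff] using hj
    conv_lhs => rw [h2]
    rw [map_sum]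
    refine Finset.sum_congr rfl fun j _ => ?_
    exact eval_smul_of_isHomogeneous (homogeneousComponent_isHomogeneous j p) t v
  -- restrict to the line through `a` with direction `v`
  have h4 : Tendsto (fun t : ℂ => a + t • v) (𝓝 0) (𝓝 a) := by
    have : Tendsto (fun t : ℂ => a + t • v) (𝓝 0) (𝓝 (a + (0 : ℂ) • v)) :=
      (continuous_const.add (continuous_id.smul continuous_const)).tendsto 0
    simpa using this
  have h5 : (fun t : ℂ => eval (t • v) p) =O[𝓝 0] fun t : ℂ => t ^ (k + 1) := by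
    have h6 := h.comp_tendsto h4
    have h7 : ((fun z : Fin n → ℂ => ‖z - a‖ ^ (k + 1)) ∘ fun t : ℂ => a + t • v) =O[𝓝 0]
        fun t : ℂ => t ^ (k + 1) := by
      have h8 : (fun t : ℂ => ‖t • v‖) =O[𝓝 0] fun t : ℂ => t := by
        refine Asymptotics.IsBigO.of_bound ‖v‖ (Eventually.of_forall fun t => ?_)
        rw [norm_norm, norm_smul, mul_comm]
      have h9 := h8.pow (k + 1)
      refine h9.congr_left fun t => ?_
      simp
    refine (h6.trans h7).congr_left fun t => ?_
    simp
  have h10 := coeff_eq_zero (k + 1) (fun j => eval v (homogeneousComponent j p))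
    (h5.congr_left h1)
  have h11 := h1 1
  rw [one_smul] at h11
  rw [h11, map_zero]
  refine Finset.sum_eq_zero fun j hj => ?_
  rw [h10 j (Finset.mem_range.1 hj), zero_mul]

end Order

end Groth.Agent.Gaga.H145.OrdAlg
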