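import Groth.Agent.Gaga.H145.OrdAlg
import Groth.Agent.Gaga.H145.Hadamard
import Groth.Agent.Gaga.H9.Germ
import Mathlib.Topology.Germ

/-!
# Order of vanishing of holomorphic germs on `ℂⁿ`

For `a : Fin n → ℂ` and `hol a` the ring of germs at `a` of holomorphic functions, `val a` the
evaluation at `a`:
* `ker_eq_span` : the kernel of `val a` is generated by the `z i - a i`;
* `mem_pow_iff` : a germ is in the `k`-th power of it iff it is `O(‖z - a‖ ^ k)`;
* `finite_quot` : the quotients by the powers are finite dimensional.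
-/

set_option autoImplicit false
open Filter Topology MvPolynomial

noncomputable section

namespace Groth.Agent.Gaga.H145.OrdGerm

open Groth.Agent.Gaga.H9.Germ

variable {n : ℕ} (a : Fin n → ℂ)

/-- Constants. -/
def const : ℂ →+* hol a where
  toFun c := ⟨((fun _ => c : (Fin n → ℂ) → ℂ) : Germ (𝓝 a) ℂ),
    ⟨_, Eventually.of_forall fun _ => differentiableAt_const _, rfl⟩⟩
  map_one' := rfl
  map_zero' := rfl
  map_mul' _ _ := rfl
  map_add' _ _ := rfl

/-- `hol a` as an algebra over the constants. -/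
instance algebra : Algebra ℂ (hol a) := (const a).toAlgebra

/-- The germ of a function. -/
def mk (G : (Fin n → ℂ) → ℂ) (hG : ∀ᶠ z in 𝓝 a, DifferentiableAt ℂ G z) : hol a :=
  ⟨(G : Germ (𝓝 a) ℂ), ⟨G, hG, rfl⟩⟩

variable {a} in
lemma exists_mk (g : hol a) : ∃ (G : (Fin n → ℂ) → ℂ) (hG : ∀ᶠ z in 𝓝 a, DifferentiableAt ℂ G z),
    g = mk a G hG := by
  obtain ⟨_, G, hG, rfl⟩ := g
  exact ⟨G, hG, rfl⟩

/-- The value at `a`. -/
def val : hol a →+* ℂ := (Germ.valueRingHom : Germ (𝓝 a) ℂ →+* ℂ).comp (hol a).subtype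

@[simp] lemma val_mk (G : (Fin n → ℂ) → ℂ) (hG) : val a (mk a G hG) = G a := rfl

lemma val_eq {g : hol a} {G : (Fin n → ℂ) → ℂ} (h : g.1 = (G : Germ (𝓝 a) ℂ)) :
    val a g = G a := by
  change Germ.value g.1 = G a
  rw [h]; rfl

@[simp] lemma val_algebraMap (c : ℂ) : val a (algebraMap ℂ (hol a) c) = c := rfl

/-- The coordinates, centered at `a`. -/
def coord (i : Fin n) : hol a :=
  mk a (fun z => z i - a i) (Eventually.of_forall fun _ => by fun_prop)

lemma sub_const_mem (g : hol a) : g - algebraMap ℂ (hol a) (val a g) ∈ RingHom.ker (val a) := by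
  rw [RingHom.mem_ker, map_sub, val_algebraMap, sub_self]

/-- The ideal of germs vanishing at `a` is generated by the coordinates. -/
theorem ker_eq_span : RingHom.ker (val a) = Ideal.span (Set.range (coord a)) := by
  apply le_antisymm
  · intro g hg
    obtain ⟨G, hG, rfl⟩ := exists_mk g
    have h0 : G a = 0 := hg
    obtain ⟨V, hV1, hV2, hV3⟩ := eventually_nhds_iff.1 hG
    obtain ⟨V', hV', hV'o, haV', H, hH, hw⟩ := H145.Hadamard.hadamard hV2
      (fun c hc => (hV1 c hc).differentiableWithinAt) hV3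
    have hHd : ∀ i, ∀ᶠ z in 𝓝 a, DifferentiableAt ℂ (H i) z := fun i => by
      filter_upwards [hV'o.mem_nhds haV'] with c hc
      exact (hH i).differentiableAt (hV'o.mem_nhds hc)
    have key : mk a G hG = ∑ i, coord a i * mk a (H i) (hHd i) := by
      apply Subtype.ext
      rw [AddSubmonoidClass.coe_finsetSum]
      have h1 : (∑ i, ((coord a i * mk a (H i) (hHd i) : hol a) : Germ (𝓝 a) ℂ)) =
          ((∑ i, fun z : Fin n → ℂ => (z i - a i) * H i z : (Fin n → ℂ) → ℂ) : Germ (𝓝 a) ℂ) := by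
        have h2 := map_sum (Germ.coeRingHom (R := ℂ) (𝓝 a))
          (fun i : Fin n => (fun z : Fin n → ℂ => (z i - a i) * H i z)) Finset.univ
        exact h2.symm
      rw [h1]
      refine Germ.coe_eq.2 ?_
      filter_upwards [hV'o.mem_nhds haV'] with w hw'
      rw [hw w hw', h0, zero_add, Finset.sum_apply]
    rw [key]
    exact Ideal.sum_mem _ fun i _ => Ideal.mul_mem_right _ _ (Ideal.subset_span ⟨i, rfl⟩)
  · rw [Ideal.span_le]
    rintro _ ⟨i, rfl⟩
    exact sub_self (a i)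

/-- Polynomials in the coordinates. -/
lemma coe_aeval (p : MvPolynomial (Fin n) ℂ) :
    ((aeval (coord a) p : hol a) : Germ (𝓝 a) ℂ) =
      ((fun z => eval (z - a) p : (Fin n → ℂ) → ℂ) : Germ (𝓝 a) ℂ) := by
  induction p using MvPolynomial.induction_on with
  | C c => simp only [aeval_C, eval_C]; rfl
  | add p q hp hq =>
    rw [map_add, Subring.coe_add, hp, hq]
    simp only [map_add]
    rfl
  | mul_X p i hp =>
    rw [map_mul, Subring.coe_mul, hp, aeval_X]
    simp only [map_mul, eval_X]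
    rfl

theorem isBigO_of_mem_pow (k : ℕ) : ∀ g ∈ RingHom.ker (val a) ^ k, ∀ G : (Fin n → ℂ) → ℂ,
    g.1 = (G : Germ (𝓝 a) ℂ) → G =O[𝓝 a] fun z => ‖z - a‖ ^ k := by
  induction k with
  | zero =>
    intro g _ G h
    obtain ⟨G', hG', rfl⟩ := exists_mk g
    have h1 : G' =ᶠ[𝓝 a] G := Germ.coe_eq.1 h
    have h2 : G' =O[𝓝 a] (fun _ => (1 : ℝ)) := hG'.self_of_nhds.continuousAt.isBigO_one ℝ
    simpa using h1.symm.trans_isBigO h2
  | succ k ih =>
    intro g hg
    rw [pow_succ] at hg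
    refine Submodule.mul_induction_on hg ?_ ?_
    · intro u hu v hv G h
      obtain ⟨U, hU, rfl⟩ := exists_mk u
      obtain ⟨V, hV, rfl⟩ := exists_mk v
      have h1 : (fun z => U z * V z) =ᶠ[𝓝 a] G := Germ.coe_eq.1 h
      have h2 := ih _ hu U rfl
      have hVa : V a = 0 := hv
      have h3 : V =O[𝓝 a] fun z => ‖z - a‖ := by
        have h4 := hV.self_of_nhds.isBigO_sub
        rw [hVa] at h4
        simpa using h4.norm_right
      refine h1.symm.trans_isBigO ?_
      simpa [pow_succ] using h2.mul h3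
    · intro u v hu hv G h
      obtain ⟨U, hU, rfl⟩ := exists_mk u
      obtain ⟨V, hV, rfl⟩ := exists_mk v
      have h1 : (fun z => U z + V z) =ᶠ[𝓝 a] G := Germ.coe_eq.1 h
      exact h1.symm.trans_isBigO ((hu U rfl).add (hv V rfl))

/-- **A germ is in the `k`-th power of the ideal of germs vanishing at `a` iff it is
`O(‖z - a‖ ^ k)`.** -/
theorem mem_pow_iff (k : ℕ) (g : hol a) (G : (Fin n → ℂ) → ℂ) (h : g.1 = (G : Germ (𝓝 a) ℂ)) :
    g ∈ RingHom.ker (val a) ^ k ↔ G =O[𝓝 a] fun z => ‖z - a‖ ^ k := by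
  refine ⟨fun hg => isBigO_of_mem_pow a k g hg G h, fun hG => ?_⟩
  rcases k with _ | k
  · rw [pow_zero, Ideal.one_eq_top]; trivial
  obtain ⟨p, hp1, hp2⟩ := OrdAlg.exists_poly (coord a) (RingHom.ker (val a)) (ker_eq_span a)
    (fun r => ⟨val a r, sub_const_mem a r⟩) k g
  have h1 : (g - aeval (coord a) p : hol a).1 =
      ((fun z => G z - eval (z - a) p : (Fin n → ℂ) → ℂ) : Germ (𝓝 a) ℂ) := by
    rw [AddSubgroupClass.coe_sub, h, coe_aeval]
    rfl
  have h2 := isBigO_of_mem_pow a (k + 1) _ hp2 _ h1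
  have h3 : (fun z : Fin n → ℂ => eval (z - a) p) =O[𝓝 a] fun z => ‖z - a‖ ^ (k + 1) := by
    refine (hG.sub h2).congr_left fun z => ?_
    ring
  have h4 := OrdAlg.eq_zero_of_isBigO p hp1 a h3
  rwa [h4, map_zero, sub_zero] at hp2

theorem finite_quot (k : ℕ) : Module.Finite ℂ (hol a ⧸ RingHom.ker (val a) ^ k) :=
  OrdAlg.finite_quot (coord a) (RingHom.ker (val a)) (ker_eq_span a)
    (fun r => ⟨val a r, sub_const_mem a r⟩) k

end Groth.Agent.Gaga.H145.OrdGerm
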