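import Mathlib.RingTheory.MvPolynomial.Ideal
import Mathlib.RingTheory.MvPolynomial.Homogeneous
import Mathlib.Algebra.MvPolynomial.Funext
import Mathlib.Analysis.Complex.Basic
import Mathlib.Algebra.Polynomial.RingDivision
import Mathlib.Topology.Algebra.Polynomial

/-!
# Order of vanishing of a complex polynomial from a growth estimate

`mem_pow_of_bound`: a polynomial `c` in `d` complex variables with `‖c(u)‖ ≤ C ‖u‖ ^ e` for small
`u` lies in `(u₁, …, u_d) ^ e`.
-/

set_option autoImplicit false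

open Filter Topology

namespace Groth.Agent.Gaga.H145.PolyOrder

/-- One variable: a polynomial with `‖p(t)‖ ≤ C ‖t‖ ^ e` near `0` is divisible by `t ^ e`. -/
theorem X_pow_dvd_of_bound (p : Polynomial ℂ) (e : ℕ) (C : ℝ)
    (h : ∀ᶠ t in 𝓝 (0 : ℂ), ‖p.eval t‖ ≤ C * ‖t‖ ^ e) : Polynomial.X ^ e ∣ p := by
  by_cases hp : p = 0
  · simp [hp]
  obtain ⟨q, hq, hq0⟩ := Polynomial.exists_eq_pow_rootMultiplicity_mul_and_not_dvd p hp 0
  set k := p.rootMultiplicity 0 with hk
  simp only [map_zero, sub_zero] at hq hq0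
  by_cases hke : e ≤ k
  · rw [hq]
    exact Dvd.dvd.mul_right (pow_dvd_pow _ hke) _
  exfalso
  push Not at hke
  have hq1 : q.eval 0 ≠ 0 := by
    intro h0
    exact hq0 (Polynomial.X_dvd_iff.2 (by rwa [Polynomial.coeff_zero_eq_eval_zero]))
  -- near 0, t ≠ 0: ‖q t‖ ≤ C ‖t‖^(e-k)
  have h1 : ∀ᶠ t in 𝓝[≠] (0 : ℂ), ‖q.eval t‖ ≤ C * ‖t‖ ^ (e - k) := by
    have h2 := h.filter_mono (nhdsWithin_le_nhds (s := {(0 : ℂ)}ᶜ))
    filter_upwards [h2, self_mem_nhdsWithin] with t ht ht0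
    have ht0' : (0 : ℝ) < ‖t‖ ^ k := pow_pos (norm_pos_iff.2 ht0) _
    have h3 : ‖t‖ ^ e = ‖t‖ ^ k * ‖t‖ ^ (e - k) := by rw [← pow_add]; congr 1; omega
    rw [hq, Polynomial.eval_mul, Polynomial.eval_pow, Polynomial.eval_X, norm_mul, norm_pow, h3] at ht
    have h4 : ‖t‖ ^ k * ‖q.eval t‖ ≤ ‖t‖ ^ k * (C * ‖t‖ ^ (e - k)) := by
      calc _ ≤ _ := ht
        _ = _ := by ring
    exact le_of_mul_le_mul_left h4 ht0'
  have h5 : Tendsto (fun t : ℂ => ‖q.eval t‖) (𝓝[≠] 0) (𝓝 ‖q.eval 0‖) :=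
    (q.continuous.norm.tendsto 0).mono_left nhdsWithin_le_nhds
  have h6 : Tendsto (fun t : ℂ => C * ‖t‖ ^ (e - k)) (𝓝[≠] 0) (𝓝 0) := by
    have h7 : Tendsto (fun t : ℂ => C * ‖t‖ ^ (e - k)) (𝓝 0) (𝓝 (C * ‖(0 : ℂ)‖ ^ (e - k))) :=
      (continuous_const.mul (continuous_norm.pow _)).tendsto 0
    have h8 : C * ‖(0 : ℂ)‖ ^ (e - k) = 0 := by
      rw [norm_zero, zero_pow (by omega), mul_zero]
    rw [h8] at h7
    exact h7.mono_left nhdsWithin_le_nhds
  have h9 := le_of_tendsto_of_tendsto h5 h6 h1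
  exact hq1 (norm_le_zero_iff.1 h9)

/-- The polynomial in one variable `t ↦ c (t v)`. -/
noncomputable def line {d : ℕ} (c : MvPolynomial (Fin d) ℂ) (v : Fin d → ℂ) : Polynomial ℂ :=
  MvPolynomial.aeval (fun i => Polynomial.C (v i) * Polynomial.X) c

theorem eval_line {d : ℕ} (c : MvPolynomial (Fin d) ℂ) (v : Fin d → ℂ) (t : ℂ) :
    (line c v).eval t = MvPolynomial.eval (t • v) c := by
  rw [line, ← Polynomial.coe_evalRingHom, MvPolynomial.aeval_def, MvPolynomial.hom_eval₂,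
    MvPolynomial.eval, MvPolynomial.coe_eval₂Hom]
  congr 1
  · ext z
    simp
  · ext i
    simp only [map_mul, Polynomial.coe_evalRingHom, Polynomial.eval_C,
      Polynomial.eval_X, Pi.smul_apply, smul_eq_mul]
    ring

theorem line_monomial {d : ℕ} (s : Fin d →₀ ℕ) (a : ℂ) (v : Fin d → ℂ) :
    line (MvPolynomial.monomial s a) v =
      Polynomial.C (MvPolynomial.eval v (MvPolynomial.monomial s a)) * Polynomial.X ^ s.degree := by
  rw [line, MvPolynomial.aeval_monomial, MvPolynomial.eval_monomial, Finsupp.prod, Finsupp.prod]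
  have : ∀ i ∈ s.support, (Polynomial.C (v i) * Polynomial.X) ^ s i =
      Polynomial.C (v i ^ s i) * Polynomial.X ^ s i := by
    intro i _
    rw [mul_pow, Polynomial.C_pow]
  rw [Finset.prod_congr rfl this, Finset.prod_mul_distrib, Finset.prod_pow_eq_pow_sum,
    Polynomial.C_mul, map_prod, Finsupp.degree_apply, Polynomial.algebraMap_eq, mul_assoc]

theorem coeff_line {d : ℕ} (c : MvPolynomial (Fin d) ℂ) (v : Fin d → ℂ) (k : ℕ) :
    (line c v).coeff k = MvPolynomial.eval v (MvPolynomial.homogeneousComponent k c) := by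
  induction c using MvPolynomial.induction_on' with
  | monomial s a =>
    rw [line_monomial, Polynomial.coeff_C_mul, Polynomial.coeff_X_pow,
      MvPolynomial.homogeneousComponent_of_mem (n := s.degree)
        (MvPolynomial.isHomogeneous_monomial _ rfl)]
    by_cases hk : k = s.degree
    · simp [hk]
    · rw [if_neg hk, if_neg hk]
      simp
  | add p q hp hq =>
    have h1 : line (p + q) v = line p v + line q v := by simp [line]
    rw [h1, Polynomial.coeff_add, hp, hq, map_add, map_add]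

/-- A polynomial in `d` complex variables with `‖c(u)‖ ≤ C ‖u‖ ^ e` for `‖u‖ < 1` lies in the
`e`-th power of the ideal of the variables. -/
theorem mem_pow_of_bound {d : ℕ} (c : MvPolynomial (Fin d) ℂ) (e : ℕ) (C : ℝ)
    (h : ∀ u : Fin d → ℂ, ‖u‖ < 1 → ‖MvPolynomial.eval u c‖ ≤ C * ‖u‖ ^ e) :
    c ∈ MvPolynomial.idealOfVars (Fin d) ℂ ^ e := by
  rw [MvPolynomial.mem_pow_idealOfVars_iff']
  have key : ∀ k < e, MvPolynomial.homogeneousComponent k c = 0 := by
    intro k hk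
    refine MvPolynomial.funext fun v => ?_
    rw [map_zero, ← coeff_line]
    have h1 : Polynomial.X ^ e ∣ line c v := by
      refine X_pow_dvd_of_bound _ e (C * ‖v‖ ^ e) ?_
      have h2 : ∀ᶠ t in 𝓝 (0 : ℂ), ‖t • v‖ < 1 := by
        have h3 : Tendsto (fun t : ℂ => ‖t • v‖) (𝓝 0) (𝓝 ‖(0 : ℂ) • v‖) :=
          ((continuous_id.smul continuous_const).norm).tendsto 0
        rw [zero_smul, norm_zero] at h3
        exact h3.eventually (gt_mem_nhds one_pos)
      filter_upwards [h2] with t ht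
      rw [eval_line]
      calc _ ≤ C * ‖t • v‖ ^ e := h _ ht
        _ = _ := by rw [norm_smul, mul_pow]; ring
    exact Polynomial.X_pow_dvd_iff.1 h1 k hk
  intro x hx
  have h1 := congrArg (MvPolynomial.coeff x) (key x.degree hx)
  rwa [MvPolynomial.coeff_homogeneousComponent, if_pos rfl, MvPolynomial.coeff_zero] at h1

end Groth.Agent.Gaga.H145.PolyOrder
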