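import Groth.Agent.Gaga.H145.DomainCase
import Mathlib.RingTheory.Ideal.MinimalPrime.Noetherian

/-!
# Small functions at a point of an affine variety: the reduced case
-/

set_option autoImplicit false

namespace Groth.Agent.Gaga.H145.ReducedCase

open Groth.Agent.Gaga.H145.DomainCase

/-- Artin-Rees for a finite family of ideals: `⋂ (m ^ n' + P_i) ⊆ m ^ n + ⋂ P_i` for large `n'`. -/
theorem exists_iInf_sup_le {S : Type*} [CommRing S] [IsNoetherianRing S] {κ : Type*} [Finite κ]
    (P : κ → Ideal S) (m : Ideal S) (n : ℕ) :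
    ∃ n' : ℕ, ∀ f : S, (∀ i, f ∈ m ^ n' ⊔ P i) → f ∈ m ^ n ⊔ ⨅ i, P i := by
  classical
  have := Fintype.ofFinite κ
  let φ : S →ₗ[S] ((i : κ) → S ⧸ P i) := LinearMap.pi fun i => (P i).mkQ
  obtain ⟨k, hk⟩ := Ideal.exists_pow_inf_eq_pow_smul m (LinearMap.range φ)
  refine ⟨n + k, fun f hf => ?_⟩
  have h1 : φ f ∈ (m ^ (n + k) • ⊤ : Submodule S ((i : κ) → S ⧸ P i)) := by
    have h2 : φ f = ∑ i, LinearMap.single S (fun i => S ⧸ P i) i (φ f i) := by
      simp only [LinearMap.coe_single]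
      exact (Finset.univ_sum_single _).symm
    rw [h2]
    refine Submodule.sum_mem _ fun i _ => ?_
    obtain ⟨a, ha, b, hb, hab⟩ := Submodule.mem_sup.1 (hf i)
    have h3 : φ f i = a • (P i).mkQ 1 := by
      have h4 : (P i).mkQ f = (P i).mkQ a := by
        rw [← hab, map_add]
        have h5 : (P i).mkQ b = 0 := by
          rw [Submodule.mkQ_apply, Submodule.Quotient.mk_eq_zero]
          exact hb
        rw [h5, add_zero]
      change (P i).mkQ f = _
      rw [h4, ← map_smul, smul_eq_mul, mul_one]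
    rw [h3, map_smul]
    exact Submodule.smul_mem_smul ha trivial
  have h2 : φ f ∈ (m ^ (n + k) • ⊤ ⊓ LinearMap.range φ : Submodule S ((i : κ) → S ⧸ P i)) :=
    ⟨h1, ⟨f, rfl⟩⟩
  rw [hk (n + k) (Nat.le_add_left _ _), Nat.add_sub_cancel] at h2
  have h3 : φ f ∈ m ^ n • LinearMap.range φ :=
    (Submodule.smul_mono le_rfl inf_le_right : _ ≤ m ^ n • LinearMap.range φ) h2
  rw [LinearMap.range_eq_map, ← Submodule.map_smul''] at h3
  obtain ⟨g, hg, hgf⟩ := h3
  have hg' : g ∈ m ^ n := by simpa using hg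
  have h4 : f - g ∈ ⨅ i, P i := by
    rw [Ideal.mem_iInf]
    intro i
    have h5 : (P i).mkQ (f - g) = 0 := by
      rw [map_sub, sub_eq_zero]
      exact (congrFun hgf i).symm
    rwa [Submodule.mkQ_apply, Submodule.Quotient.mk_eq_zero] at h5
  have h5 : f = g + (f - g) := by ring
  rw [h5]
  exact Submodule.add_mem_sup hg' h4

theorem Small.mono {S : Type*} [CommRing S] [Algebra ℂ S] {ι : Type*} [Fintype ι] {t : ι → S}
    {N N' : ℕ} (hN : N' ≤ N) {f : S} (h : Small t N f) : Small t N' f := by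
  obtain ⟨C, η, hη, h⟩ := h
  refine ⟨|C|, min η 1, lt_min hη one_pos, fun y hy => ?_⟩
  have h1 := h y (hy.trans_le (min_le_left _ _))
  have h2 : ‖fun j => y (t j)‖ ≤ 1 := (hy.trans_le (min_le_right _ _)).le
  refine h1.trans ?_
  calc C * ‖fun j => y (t j)‖ ^ N ≤ |C| * ‖fun j => y (t j)‖ ^ N := by
        gcongr
        exact le_abs_self C
    _ ≤ |C| * ‖fun j => y (t j)‖ ^ N' := by
        gcongr ?_ * ?_
        exact pow_le_pow_of_le_one (norm_nonneg _) h2 hN

/-- Smallness is inherited by quotients. -/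
theorem Small.map {S S' : Type*} [CommRing S] [Algebra ℂ S] [CommRing S'] [Algebra ℂ S']
    (φ : S →ₐ[ℂ] S') {ι : Type*} [Fintype ι] {t : ι → S} {N : ℕ} {f : S} (h : Small t N f) :
    Small (fun j => φ (t j)) N (φ f) := by
  obtain ⟨C, η, hη, h⟩ := h
  exact ⟨C, η, hη, fun y hy => h (y.comp φ) hy⟩

/-- **Reduced case.**  For a reduced finite type `ℂ`-algebra `S` and a point `x`, for every `n` there
is `N` such that functions which are `N`-small at `x` lie in `m_x ^ n`. -/
theorem reduced_case {S : Type*} [CommRing S] [IsReduced S] [Algebra ℂ S] [Algebra.FiniteType ℂ S]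
    (x : S →ₐ[ℂ] ℂ) {ι : Type*} [Fintype ι] (t : ι → S) (ht : ∀ j, x (t j) = 0) (n : ℕ) :
    ∃ N : ℕ, ∀ f : S, Small t N f → f ∈ (RingHom.ker x) ^ n := by
  classical
  have hnoeth : IsNoetherianRing S := Algebra.FiniteType.isNoetherianRing ℂ S
  have hmmax : (RingHom.ker x).IsMaximal := RingHom.ker_isMaximal_of_surjective x.toRingHom
    fun z => ⟨algebraMap ℂ S z, by simp⟩
  have hfin : Finite (minimalPrimes S) := minimalPrimes.finite_of_isNoetherianRing S
  obtain ⟨n', hn'⟩ := exists_iInf_sup_le (fun P : minimalPrimes S => P.1) (RingHom.ker x) n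
  have key : ∀ P : minimalPrimes S, ∃ N : ℕ, ∀ f : S, Small t N f → f ∈ (RingHom.ker x) ^ n' ⊔ P.1 := by
    intro P
    have hP : P.1.IsPrime := P.2.1.1
    by_cases hle : P.1 ≤ RingHom.ker x
    · let xP : (S ⧸ P.1) →ₐ[ℂ] ℂ := Ideal.Quotient.liftₐ P.1 x fun a ha => hle ha
      obtain ⟨N, hN⟩ := domain_case xP (fun j => Ideal.Quotient.mkₐ ℂ P.1 (t j))
        (fun j => by simpa [xP] using ht j) n'
      refine ⟨N, fun f hf => ?_⟩
      have h1 := hN _ (Small.map (Ideal.Quotient.mkₐ ℂ P.1) hf)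
      have h2 : RingHom.ker xP = (RingHom.ker x).map (Ideal.Quotient.mk P.1) := by
        ext z
        obtain ⟨z, rfl⟩ := Ideal.Quotient.mk_surjective z
        rw [RingHom.mem_ker, Ideal.mem_quotient_iff_mem hle, RingHom.mem_ker]
        rfl
      rw [h2, ← Ideal.map_pow] at h1
      have h3 : Ideal.Quotient.mk P.1 f ∈ ((RingHom.ker x) ^ n').map (Ideal.Quotient.mk P.1) := h1
      rw [Ideal.mem_map_iff_of_surjective _ Ideal.Quotient.mk_surjective] at h3
      obtain ⟨a, ha, haf⟩ := h3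
      rw [Ideal.Quotient.eq] at haf
      have h4 : f = a + (f - a) := by ring
      rw [h4]
      refine Submodule.add_mem_sup ha ?_
      rw [← neg_sub]
      exact P.1.neg_mem haf
    · refine ⟨0, fun f _ => ?_⟩
      have h1 : RingHom.ker x ⊔ P.1 = ⊤ := by
        refine (Ideal.isMaximal_def.1 hmmax).2 _ ?_
        exact left_lt_sup.2 hle
      rw [Ideal.pow_sup_eq_top h1]
      trivial
  choose N hN using key
  obtain ⟨B, hB⟩ := Finite.exists_le N
  refine ⟨B, fun f hf => ?_⟩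
  have h1 := hn' f fun P => hN P f (Small.mono (hB P) hf)
  have h2 : (⨅ P : minimalPrimes S, P.1) = ⊥ := by
    have h3 : sInf (minimalPrimes S) = (⊥ : Ideal S).radical := Ideal.sInf_minimalPrimes
    rw [← sInf_eq_iInf', h3]
    rw [← Ideal.zero_eq_bot, ← nilradical, nilradical_eq_zero]
  rwa [h2, sup_bot_eq] at h1

end Groth.Agent.Gaga.H145.ReducedCase
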